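import Cfsg.Agent.H776.Co.FusDef

/-!
# S5227, task C10: the Weyl elements of `R1` and `R2` (helper623)

`f` = an extension to `R` of the given element of `GF F`; `B = f t f⁻¹ t f` commutes with the involution `t` and agrees with
the Weyl element `w` on `A`; then `B = w ∘ c_s` for some `s ∈ A`.
-/

set_option autoImplicit false
set_option linter.style.longLine false

namespace Cfsg.Agent.H623.CoLift

open Subgroup Cfsg Cfsg.Agent.H752 Cfsg.Agent.H776.Co P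

theorem three (x : ZMod 3) : x + x + x = 0 := by revert x; decide

theorem cent_A {x : P} (h : ∀ y ∈ A, x * y = y * x) : x ∈ A := by
  have h1 := h ⟨0, 0, 0, 0, 0, 0, 0, 0, 1⟩ ⟨rfl, rfl, rfl⟩
  have h2 := h ⟨0, 0, 0, 0, 0, 1, 0, 0, 0⟩ ⟨rfl, rfl, rfl⟩
  have e1 := congrArg P.m12 h2
  have e2 := congrArg P.m23 h1
  have e3 := congrArg P.m13 h1
  simp only [mul_m12, mul_m23, mul_m13] at e1 e2 e3
  exact ⟨by linear_combination e1, by linear_combination e2, by linear_combination e3⟩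

theorem conj_A (x : P) {y : P} (hy : y ∈ A) : x * y * x⁻¹ ∈ A := by
  obtain ⟨h1, h2, h3⟩ := hy
  exact ⟨by simp [h1], by simp [h2], by simp [h1, h2, h3]⟩

theorem comm_A {x y : P} (hx : x ∈ A) (hy : y ∈ A) : x * y = y * x := by
  obtain ⟨h1, h2, h3⟩ := hx
  obtain ⟨h4, h5, h6⟩ := hy
  ext <;> simp only [mul_a, mul_b, mul_c, mul_m11, mul_m12, mul_m22, mul_m13, mul_m23, mul_m33, h1, h2, h3, h4, h5, h6] <;> ring

theorem pow_A {x : P} (hx : x ∈ A) : x * x * x = 1 := by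
  obtain ⟨h1, h2, h3⟩ := hx
  ext <;> simp only [mul_a, mul_b, mul_c, mul_m11, mul_m12, mul_m22, mul_m13, mul_m23, mul_m33, h1, h2, h3, one_a, one_b, one_c,
    one_m11, one_m12, one_m22, one_m13, one_m23, one_m33]
  · ring
  · ring
  · ring
  · linear_combination three x.m11
  · linear_combination three x.m12
  · linear_combination three x.m22
  · linear_combination three x.m13
  · linear_combination three x.m23
  · linear_combination three x.m33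

/-- an automorphism of `R ≥ A` trivial on `A` has order dividing three -/
theorem cube {R : Subgroup P} (hR : A ≤ R) {u : MulAut R} (hu : ∀ x : R, (x : P) ∈ A → u x = x) : u * u * u = 1 := by
  refine MulEquiv.ext fun x => ?_
  obtain ⟨z, hz⟩ : ∃ z : R, z = x⁻¹ * u x := ⟨_, rfl⟩
  have hux : u x = x * z := by rw [hz]; group
  have hzA : (z : P) ∈ A := by
    apply cent_A
    intro y hy
    have hyR : y ∈ R := hR hy
    have h1 : u ⟨y, hyR⟩ = ⟨y, hyR⟩ := hu _ hy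
    have h2 : u (x * ⟨y, hyR⟩ * x⁻¹) = x * ⟨y, hyR⟩ * x⁻¹ := hu _ (conj_A _ hy)
    rw [map_mul, map_mul, map_inv, h1, hux] at h2
    have h3 : z * ⟨y, hyR⟩ = ⟨y, hyR⟩ * z := by
      have h4 : x * z * ⟨y, hyR⟩ * (x * z)⁻¹ = x * (z * ⟨y, hyR⟩ * z⁻¹) * x⁻¹ := by group
      rw [h4] at h2
      have h5 : z * ⟨y, hyR⟩ * z⁻¹ = ⟨y, hyR⟩ := mul_left_cancel (mul_right_cancel h2)
      rw [mul_inv_eq_iff_eq_mul] at h5
      exact h5
    exact congrArg Subtype.val h3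
  have huz : u z = z := hu z hzA
  have h1 : (u * u * u) x = x * (z * z * z) := by
    show u (u (u x)) = _
    rw [hux, map_mul, hux, huz, map_mul, map_mul, hux, huz]
    group
  have h2 : z * z * z = 1 := Subtype.ext (pow_A hzA)
  rw [h1, h2, mul_one]
  rfl

theorem exists_comm {F : FusionSystem (⊤ : Subgroup P)} {R : Subgroup P} (hR : A ≤ R) {t f : P → P} (ht : Mp F ⊤ t)
    (htt : ∀ x, t (t x) = x) (htR : ∀ x ∈ R, t x ∈ R) (htA : ∀ x ∈ A, t x ∈ A) (hf : Mp F R f) (hfR : ∀ x ∈ R, f x ∈ R)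
    (hfA : ∀ x ∈ A, f x ∈ A) (hc : ∀ x ∈ A, f (t x) = t (f x)) :
    ∃ B, Mp F R B ∧ (∀ x ∈ R, B x ∈ R) ∧ (∀ x ∈ A, B x = f x) ∧ ∀ x ∈ R, B (t x) = t (B x) := by
  obtain ⟨α, hα, hα'⟩ := hf.exists_aut hfR
  obtain ⟨τ, hτ, hτ'⟩ := (ht.res (R := R) le_top).exists_aut htR
  have hττ : τ * τ = 1 := by
    refine MulEquiv.ext fun x => ?_
    have h1 := hτ' (τ x) (τ x).2
    have h2 := hτ' x x.2
    have h3 : t (t x) = ((τ (τ x) : R) : P) := by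
      conv_lhs => rw [h2]
      exact h1
    rw [htt] at h3
    exact Subtype.ext h3.symm
  obtain ⟨β, hβ⟩ : ∃ β, β = α * τ * α⁻¹ * τ * α := ⟨_, rfl⟩
  have hβm : β ∈ F.autGroup R := by
    rw [hβ]
    exact mul_mem (mul_mem (mul_mem (mul_mem hα hτ) (inv_mem hα)) hτ) hα
  -- on A
  have hατ : ∀ x : R, (x : P) ∈ A → α (τ x) = τ (α x) := by
    intro x hx
    apply Subtype.ext
    rw [← hα' _ (τ x).2, ← hτ' x x.2, ← hτ' _ (α x).2, ← hα' x x.2]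
    exact hc _ hx
  have hβA : ∀ x : R, (x : P) ∈ A → β x = α x := by
    intro x hx
    rw [hβ]
    show α (τ (α⁻¹ (τ (α x)))) = α x
    rw [← hατ x hx]
    have h1 : α⁻¹ (α (τ x)) = τ x := α.symm_apply_apply _
    have h2 : τ (τ x) = x := DFunLike.congr_fun hττ x
    rw [h1, h2]
  have hu3 := cube hR (u := τ * (α * τ * α⁻¹)) (by
    intro x hx
    obtain ⟨y, hy, hyx⟩ := (hf.res hR).surj hfA hx
    have h1 : α ⟨y, hR hy⟩ = x := Subtype.ext (by rw [← hα' y (hR hy), hyx])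
    have h2 : α⁻¹ x = ⟨y, hR hy⟩ := by rw [← h1]; exact α.symm_apply_apply _
    show τ (α (τ (α⁻¹ x))) = x
    rw [h2, hατ _ hy, h1]
    exact DFunLike.congr_fun hττ x)
  have hβτ : β * τ = τ * β := by
    obtain ⟨s, hs⟩ : ∃ s, s = α * τ * α⁻¹ := ⟨_, rfl⟩
    rw [← hs] at hu3
    have hss : s * s = 1 := by
      rw [hs]
      calc α * τ * α⁻¹ * (α * τ * α⁻¹) = α * (τ * τ) * α⁻¹ := by group
        _ = 1 := by rw [hττ]; group
    have hτi : τ⁻¹ = τ := inv_eq_of_mul_eq_one_left hττ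
    have hsi : s⁻¹ = s := inv_eq_of_mul_eq_one_left hss
    have h1 : s * τ * s = τ * s * τ := by
      have h2 : (τ * s * τ) * (s * τ * s) = 1 := by
        calc (τ * s * τ) * (s * τ * s) = τ * s * (τ * s) * (τ * s) := by group
          _ = 1 := hu3
      have h3 := eq_inv_of_mul_eq_one_right h2
      rw [h3, mul_inv_rev, mul_inv_rev, hτi, hsi, mul_assoc]
    have h4 : α * τ = s * α := by rw [hs]; group
    calc β * τ = s * τ * (α * τ) := by rw [hβ, hs]; group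
      _ = s * τ * s * α := by rw [h4]; group
      _ = τ * β := by rw [h1, hβ, hs]; group
  refine ⟨ex fun x => ((β x : R) : P), (mp_iff_autGroup le_top β).1 hβm, ?_, ?_, ?_⟩
  · intro x hx
    rw [ex_apply _ hx]
    exact (β _).2
  · intro x hx
    rw [ex_apply _ (hR hx), hβA _ hx, ← hα' x (hR hx)]
  · intro x hx
    rw [ex_apply _ hx, ex_apply _ (htR x hx), hτ' _ (β _).2]
    have h1 : (⟨t x, htR x hx⟩ : R) = τ ⟨x, hx⟩ := Subtype.ext (hτ' x hx)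
    rw [h1]
    exact congrArg Subtype.val (DFunLike.congr_fun hβτ ⟨x, hx⟩)

/-- maps agreeing on `A` differ by elements of `A` -/
theorem diff_A {R : Subgroup P} (hR : A ≤ R) {B w : P → P} (hB : ∀ x ∈ R, ∀ y ∈ R, B (x * y) = B x * B y)
    (hw : ∀ x ∈ R, ∀ y ∈ R, w (x * y) = w x * w y) (hBw : ∀ x ∈ A, B x = w x) (hws : ∀ y ∈ A, ∃ x ∈ A, w x = y) {x : P}
    (hx : x ∈ R) : (w x)⁻¹ * B x ∈ A := by
  apply cent_A
  intro y hy
  obtain ⟨v, hv, rfl⟩ := hws y hy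
  have h1 : x * v * x⁻¹ ∈ A := conj_A x hv
  have h2 : B (x * v) = B (x * v * x⁻¹) * B x := by
    rw [← hB _ (hR h1) _ hx]; congr 1; group
  have h3 : w (x * v) = w (x * v * x⁻¹) * w x := by
    rw [← hw _ (hR h1) _ hx]; congr 1; group
  rw [hB _ hx _ (hR hv), hBw _ h1, hBw _ hv] at h2
  rw [hw _ hx _ (hR hv)] at h3
  have h4 : w (x * v * x⁻¹) = w x * w v * (w x)⁻¹ := by rw [h3]; group
  rw [h4] at h2
  calc (w x)⁻¹ * B x * w v = (w x)⁻¹ * (B x * w v) := by group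
    _ = (w x)⁻¹ * (w x * w v * (w x)⁻¹ * B x) := by rw [h2]
    _ = w v * ((w x)⁻¹ * B x) := by group

def u12 : P := ⟨1, 0, 0, 0, 0, 0, 0, 0, 0⟩
def u23 : P := ⟨0, 1, 0, 0, 0, 0, 0, 0, 0⟩
def u13 : P := ⟨0, 0, 1, 0, 0, 0, 0, 0, 0⟩

theorem gen_R1 {H : Subgroup P} (hA : A ≤ H) (h23 : u23 ∈ H) (h13 : u13 ∈ H) : R1 ≤ H := by
  intro x (hx : x.a = 0)
  have h1 : x = vec (crd x) * (u23 ^ (x.b).val * u13 ^ (x.c).val) := by
    obtain ⟨a, b, c, m11, m12, m22, m13, m23, m33⟩ := x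
    simp only at hx
    subst hx
    fin_cases b <;> fin_cases c <;>
      (ext <;> simp [vec, crd, u23, u13, pow_succ, ZMod.val] <;> rfl)
  rw [h1]
  exact mul_mem (hA (vec_mem _)) (mul_mem (pow_mem h23 _) (pow_mem h13 _))

theorem gen_R2 {H : Subgroup P} (hA : A ≤ H) (h12 : u12 ∈ H) (h13 : u13 ∈ H) : R2 ≤ H := by
  intro x (hx : x.b = 0)
  have h1 : x = vec (crd x) * (u12 ^ (x.a).val * u13 ^ (x.c).val) := by
    obtain ⟨a, b, c, m11, m12, m22, m13, m23, m33⟩ := x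
    simp only at hx
    subst hx
    fin_cases a <;> fin_cases c <;>
      (ext <;> simp [vec, crd, u12, u13, pow_succ, ZMod.val] <;> rfl)
  rw [h1]
  exact mul_mem (hA (vec_mem _)) (mul_mem (pow_mem h12 _) (pow_mem h13 _))

theorem cj33_u23 (k : ZMod 3) : (⟨0, 0, 0, 0, 0, 0, 0, 0, k⟩ : P) * u23 * (⟨0, 0, 0, 0, 0, 0, 0, 0, k⟩ : P)⁻¹ =
    ⟨0, 1, 0, 0, 0, -k, 0, -k, 0⟩ := by
  rw [mul_inv_eq_iff_eq_mul]
  ext <;> simp [u23]

theorem cj33_u13 (k : ZMod 3) : (⟨0, 0, 0, 0, 0, 0, 0, 0, k⟩ : P) * u13 * (⟨0, 0, 0, 0, 0, 0, 0, 0, k⟩ : P)⁻¹ =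
    ⟨0, 0, 1, -k, 0, 0, -k, 0, 0⟩ := by
  rw [mul_inv_eq_iff_eq_mul]
  ext <;> simp [u13]

theorem cjA_u12 (x y z : ZMod 3) : (⟨0, 0, 0, 0, 0, x, 0, y, z⟩ : P) * u12 * (⟨0, 0, 0, 0, 0, x, 0, y, z⟩ : P)⁻¹ =
    ⟨1, 0, 0, -x, -x, 0, -y, 0, 0⟩ := by
  rw [mul_inv_eq_iff_eq_mul]
  ext <;> simp [u12]

theorem cjA_u13 (x y z : ZMod 3) : (⟨0, 0, 0, 0, 0, x, 0, y, z⟩ : P) * u13 * (⟨0, 0, 0, 0, 0, x, 0, y, z⟩ : P)⁻¹ =
    ⟨0, 0, 1, -z, -y, 0, -z, 0, 0⟩ := by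
  rw [mul_inv_eq_iff_eq_mul]
  ext <;> simp [u13]

/-- the two equations for `R1` -/
theorem solve1 {X Y : P} (hX : X.a = 0 ∧ X.b = 0 ∧ X.c = -1) (hY : Y.a = 0 ∧ Y.b = 1 ∧ Y.c = 0)
    (h1 : tor 1 (-1) 1 X = X⁻¹) (h2 : tor 1 (-1) 1 Y = Y⁻¹) (h3 : X * Y = Y * X) :
    X = ⟨0, 0, -1, Y.m23, 0, 0, -Y.m23, 0, 0⟩ ∧ Y = ⟨0, 1, 0, 0, 0, Y.m23, 0, Y.m23, 0⟩ := by
  obtain ⟨xa, xb, xc⟩ := hX
  obtain ⟨ya, yb, yc⟩ := hY
  have e0 := congrArg P.m11 h1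
  have e1 := congrArg P.m12 h1
  have e2 := congrArg P.m22 h1
  have e5 := congrArg P.m33 h1
  have f0 := congrArg P.m11 h2
  have f1 := congrArg P.m12 h2
  have f2 := congrArg P.m22 h2
  have f5 := congrArg P.m33 h2
  have g0 := congrArg P.m11 h3
  have g1 := congrArg P.m12 h3
  have g2 := congrArg P.m22 h3
  simp only [tor, inv_m11, inv_m12, inv_m22, inv_m33, mul_m11, mul_m12, mul_m22, xa, xb, xc, ya, yb, yc] at e0 e1 e2 e5 f0 f1 f2 f5 g0 g1 g2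
  have a5 : X.m33 = 0 := by linear_combination three X.m33 - e5
  have a2 : X.m22 = 0 := by linear_combination three X.m22 - e2
  have b5 : Y.m33 = 0 := by linear_combination three Y.m33 - f5
  have b0 : Y.m11 = 0 := by linear_combination three Y.m11 - f0
  have b3 : Y.m13 = 0 := by linear_combination three Y.m13 + g0 - b5
  have b1 : Y.m12 = 0 := by linear_combination three Y.m12 - f1 - b3
  have a4 : X.m23 = 0 := by linear_combination three X.m23 + g2 + a5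
  have a1 : X.m12 = 0 := by linear_combination three X.m12 - e1 + a4
  have a3 : X.m13 = -Y.m23 := by linear_combination -g1
  have a0 : X.m11 = Y.m23 := by linear_combination three X.m11 - e0 + 2 * a3 + a5 - three Y.m23
  have b2 : Y.m22 = Y.m23 := by linear_combination three (Y.m22 - Y.m23) - f2 + b5
  exact ⟨P.ext xa xb xc a0 a1 a2 a3 a4 a5, P.ext ya yb yc b0 b1 b2 b3 rfl b5⟩

/-- the two equations for `R2` -/
theorem solve2 {X Y : P} (hX : X.a = 0 ∧ X.b = 0 ∧ X.c = 1) (hY : Y.a = -1 ∧ Y.b = 0 ∧ Y.c = 0)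
    (h1 : tor (-1) 1 1 X = X⁻¹) (h2 : tor (-1) 1 1 Y = Y⁻¹) (h3 : X * Y = Y * X) :
    X = ⟨0, 0, 1, X.m13, X.m12, 0, X.m13, 0, 0⟩ ∧ Y = ⟨-1, 0, 0, -Y.m12, Y.m12, 0, -X.m12, 0, 0⟩ := by
  obtain ⟨xa, xb, xc⟩ := hX
  obtain ⟨ya, yb, yc⟩ := hY
  have e0 := congrArg P.m11 h1
  have e1 := congrArg P.m12 h1
  have e2 := congrArg P.m22 h1
  have e5 := congrArg P.m33 h1
  have f0 := congrArg P.m11 h2
  have f1 := congrArg P.m12 h2
  have f3 := congrArg P.m13 h2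
  have f5 := congrArg P.m33 h2
  have g0 := congrArg P.m11 h3
  simp only [tor, inv_m11, inv_m12, inv_m22, inv_m13, inv_m33, mul_m11, xa, xb, xc, ya, yb, yc] at e0 e1 e2 e5 f0 f1 f3 f5 g0
  have a5 : X.m33 = 0 := by linear_combination three X.m33 - e5
  have a2 : X.m22 = 0 := by linear_combination three X.m22 - e2
  have a4 : X.m23 = 0 := by linear_combination -e1
  have a0 : X.m11 = X.m13 := by linear_combination three (X.m11 - X.m13) - e0 + a5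
  have b5 : Y.m33 = 0 := by linear_combination three Y.m33 - f5
  have b2 : Y.m22 = 0 := by linear_combination f1
  have b4 : Y.m23 = 0 := by linear_combination f3
  have b0 : Y.m11 = -Y.m12 := by linear_combination three (Y.m11 + Y.m12) - f0 + b2
  have b3 : Y.m13 = -X.m12 := by linear_combination three (Y.m13 + X.m12) - g0 + b5 - a2
  exact ⟨P.ext xa xb xc a0 rfl a2 rfl a4 a5, P.ext ya yb yc b0 rfl b2 b3 b4 b5⟩

theorem B_one {R : Subgroup P} {B : P → P} (hB : ∀ x ∈ R, ∀ y ∈ R, B (x * y) = B x * B y) : B 1 = 1 := by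
  have h := hB 1 (one_mem R) 1 (one_mem R)
  rw [mul_one] at h
  exact left_eq_mul.1 h

theorem B_inv {R : Subgroup P} {B : P → P} (hB : ∀ x ∈ R, ∀ y ∈ R, B (x * y) = B x * B y) {x : P} (hx : x ∈ R) :
    B x⁻¹ = (B x)⁻¹ := by
  have h := hB x hx x⁻¹ (inv_mem hx)
  rw [mul_inv_cancel, B_one hB] at h
  exact (inv_eq_of_mul_eq_one_right h.symm).symm

/-- the subgroup on which two maps agree -/
def eqSub {R : Subgroup P} {B w : P → P} (hB : ∀ x ∈ R, ∀ y ∈ R, B (x * y) = B x * B y)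
    (hw : ∀ x ∈ R, ∀ y ∈ R, w (x * y) = w x * w y) : Subgroup P where
  carrier := {x | x ∈ R ∧ B x = w x}
  mul_mem' := by
    rintro x y ⟨hx, hx'⟩ ⟨hy, hy'⟩
    exact ⟨mul_mem hx hy, by rw [hB _ hx _ hy, hw _ hx _ hy, hx', hy']⟩
  one_mem' := ⟨one_mem R, by rw [B_one hB, B_one hw]⟩
  inv_mem' := by
    rintro x ⟨hx, hx'⟩
    exact ⟨inv_mem hx, by rw [B_inv hB hx, B_inv hw hx, hx']⟩

theorem normal_R1 (s : P) {x : P} (hx : x ∈ R1) : s * x * s⁻¹ ∈ R1 := by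
  have h1 : x.a = 0 := hx
  show (s * x * s⁻¹).a = 0
  simp [h1]

theorem normal_R2 (s : P) {x : P} (hx : x ∈ R2) : s * x * s⁻¹ ∈ R2 := by
  have h1 : x.b = 0 := hx
  show (s * x * s⁻¹).b = 0
  simp [h1]

theorem A_le_R1 : A ≤ R1 := fun _ h => h.1
theorem A_le_R2 : A ≤ R2 := fun _ h => h.2.1

theorem fin1 {B : P → P} (hB : ∀ x ∈ R1, ∀ y ∈ R1, B (x * y) = B x * B y) (hBA : ∀ x ∈ A, B x = w1 x)
    (hBt : ∀ x ∈ R1, B (tor 1 (-1) 1 x) = tor 1 (-1) 1 (B x)) : ∃ s : P, ∀ x ∈ R1, B x = w1 (s * x * s⁻¹) := by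
  have h23 : u23 ∈ R1 := rfl
  have h13 : u13 ∈ R1 := rfl
  have hws : ∀ y ∈ A, ∃ x ∈ A, w1 x = y := by
    rintro y ⟨ya, yb, yc⟩
    refine ⟨⟨0, 0, 0, y.m22, -y.m12, y.m11, y.m23, -y.m13, y.m33⟩, ⟨rfl, rfl, rfl⟩, ?_⟩
    ext <;> simp [w1, ya, yb, yc]
  have d1 := diff_A A_le_R1 hB (fun x hx y hy => w1_mul hx hy) hBA hws h23
  have d2 := diff_A A_le_R1 hB (fun x hx y hy => w1_mul hx hy) hBA hws h13
  obtain ⟨X, hX⟩ : ∃ X, X = B u23 := ⟨_, rfl⟩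
  obtain ⟨Y, hY⟩ : ∃ Y, Y = B u13 := ⟨_, rfl⟩
  rw [← hX] at d1
  rw [← hY] at d2
  have hX' : X.a = 0 ∧ X.b = 0 ∧ X.c = -1 := by
    obtain ⟨c1, c2, c3⟩ := d1
    simp [w1, u23] at c1 c2 c3
    exact ⟨c1, c2, by linear_combination c3⟩
  have hY' : Y.a = 0 ∧ Y.b = 1 ∧ Y.c = 0 := by
    obtain ⟨c1, c2, c3⟩ := d2
    simp [w1, u13] at c1 c2 c3
    exact ⟨c1, by linear_combination c2, by linear_combination c3⟩
  have k1 : tor 1 (-1) 1 X = X⁻¹ := by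
    rw [hX, ← hBt _ h23, ← B_inv hB h23]
    congr 1
  have k2 : tor 1 (-1) 1 Y = Y⁻¹ := by
    rw [hY, ← hBt _ h13, ← B_inv hB h13]
    congr 1
  have k3 : X * Y = Y * X := by
    rw [hX, hY, ← hB _ h23 _ h13, ← hB _ h13 _ h23]
    congr 1
  obtain ⟨r1, r2⟩ := solve1 hX' hY' k1 k2 k3
  obtain ⟨s, hs⟩ : ∃ s : P, s = ⟨0, 0, 0, 0, 0, 0, 0, 0, -Y.m23⟩ := ⟨_, rfl⟩
  have hsA : s ∈ A := by rw [hs]; exact ⟨rfl, rfl, rfl⟩
  have hw : ∀ x ∈ R1, ∀ y ∈ R1, w1 (s * (x * y) * s⁻¹) = w1 (s * x * s⁻¹) * w1 (s * y * s⁻¹) := by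
    intro x hx y hy
    rw [← w1_mul (normal_R1 s hx) (normal_R1 s hy)]
    congr 1
    group
  have key : R1 ≤ eqSub hB (w := fun x => w1 (s * x * s⁻¹)) hw := by
    refine gen_R1 ?_ ?_ ?_
    · intro x hx
      refine ⟨A_le_R1 hx, ?_⟩
      show B x = w1 (s * x * s⁻¹)
      rw [hBA x hx, comm_A hsA hx, mul_inv_cancel_right]
    · refine ⟨h23, ?_⟩
      show B u23 = w1 (s * u23 * s⁻¹)
      rw [hs, cj33_u23, ← hX, r1]
      ext <;> simp [w1]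
    · refine ⟨h13, ?_⟩
      show B u13 = w1 (s * u13 * s⁻¹)
      rw [hs, cj33_u13, ← hY]
      conv_lhs => rw [r2]
      ext <;> simp [w1]
  exact ⟨s, fun x hx => (key hx).2⟩

theorem fin2 {k : ZMod 3} {B : P → P} (hB : ∀ x ∈ R2, ∀ y ∈ R2, B (x * y) = B x * B y) (hBA : ∀ x ∈ A, B x = w2 k x)
    (hBt : ∀ x ∈ R2, B (tor (-1) 1 1 x) = tor (-1) 1 1 (B x)) : ∃ s : P, ∀ x ∈ R2, B x = w2 k (s * x * s⁻¹) := by
  have h12 : u12 ∈ R2 := rfl
  have h13 : u13 ∈ R2 := rfl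
  have hws : ∀ y ∈ A, ∃ x ∈ A, w2 k x = y := by
    rintro y ⟨ya, yb, yc⟩
    refine ⟨⟨0, 0, 0, y.m11 - k * (y.m33 - y.m22), y.m13, y.m33, -y.m12, -y.m23, y.m22⟩, ⟨rfl, rfl, rfl⟩, ?_⟩
    ext <;> simp [w2, ya, yb, yc]
  have d1 := diff_A A_le_R2 hB (fun x hx y hy => w2_mul k hx hy) hBA hws h12
  have d2 := diff_A A_le_R2 hB (fun x hx y hy => w2_mul k hx hy) hBA hws h13
  obtain ⟨X, hX⟩ : ∃ X, X = B u12 := ⟨_, rfl⟩
  obtain ⟨Y, hY⟩ : ∃ Y, Y = B u13 := ⟨_, rfl⟩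
  rw [← hX] at d1
  rw [← hY] at d2
  have hX' : X.a = 0 ∧ X.b = 0 ∧ X.c = 1 := by
    obtain ⟨c1, c2, c3⟩ := d1
    simp [w2, u12] at c1 c2 c3
    exact ⟨c1, c2, by linear_combination c3⟩
  have hY' : Y.a = -1 ∧ Y.b = 0 ∧ Y.c = 0 := by
    obtain ⟨c1, c2, c3⟩ := d2
    simp [w2, u13] at c1 c2 c3
    rw [c2] at c3
    exact ⟨by linear_combination c1, c2, by linear_combination c3⟩
  have k1 : tor (-1) 1 1 X = X⁻¹ := by
    rw [hX, ← hBt _ h12, ← B_inv hB h12]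
    congr 1
  have k2 : tor (-1) 1 1 Y = Y⁻¹ := by
    rw [hY, ← hBt _ h13, ← B_inv hB h13]
    congr 1
  have k3 : X * Y = Y * X := by
    rw [hX, hY, ← hB _ h12 _ h13, ← hB _ h13 _ h12]
    congr 1
  obtain ⟨r1, r2⟩ := solve2 hX' hY' k1 k2 k3
  obtain ⟨s, hs⟩ : ∃ s : P, s = ⟨0, 0, 0, 0, 0, -X.m13, 0, X.m12, Y.m12⟩ := ⟨_, rfl⟩
  have hsA : s ∈ A := by rw [hs]; exact ⟨rfl, rfl, rfl⟩
  have hw : ∀ x ∈ R2, ∀ y ∈ R2, w2 k (s * (x * y) * s⁻¹) = w2 k (s * x * s⁻¹) * w2 k (s * y * s⁻¹) := by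
    intro x hx y hy
    rw [← w2_mul k (normal_R2 s hx) (normal_R2 s hy)]
    congr 1
    group
  have key : R2 ≤ eqSub hB (w := fun x => w2 k (s * x * s⁻¹)) hw := by
    refine gen_R2 ?_ ?_ ?_
    · intro x hx
      refine ⟨A_le_R2 hx, ?_⟩
      show B x = w2 k (s * x * s⁻¹)
      rw [hBA x hx, comm_A hsA hx, mul_inv_cancel_right]
    · refine ⟨h12, ?_⟩
      show B u12 = w2 k (s * u12 * s⁻¹)
      rw [hs, cjA_u12, ← hX]
      conv_lhs => rw [r1]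
      ext <;> simp [w2]
    · refine ⟨h13, ?_⟩
      show B u13 = w2 k (s * u13 * s⁻¹)
      rw [hs, cjA_u13, ← hY]
      conv_lhs => rw [r2]
      ext <;> simp [w2]
  exact ⟨s, fun x hx => (key hx).2⟩

theorem lft_w1 {g : Lin.L} (hgv : ∀ v, g v = Lin.w1f v) {x : P} (hx : x ∈ A) : lft g x = w1 x := by
  obtain ⟨xa, xb, xc⟩ := hx
  ext <;> simp [lft, vec, crd, hgv, Lin.w1f, w1, xa, xb, xc]

theorem norm_w1 {g : Lin.L} (hgv : ∀ v, g v = Lin.w1f v) : ∀ r ∈ R1, g * Lin.tl r.a r.b r.c * g⁻¹ ∈ Lin.T := by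
  intro r (hr : r.a = 0)
  refine ⟨0, r.c, -r.b, ?_⟩
  rw [mul_inv_eq_iff_eq_mul, hr]
  refine LinearEquiv.ext fun v => ?_
  simp only [LinearEquiv.mul_apply, Lin.tl_apply, hgv]
  funext i
  fin_cases i <;> simp [Lin.w1f, Lin.tf] <;> ring

theorem lft_w2 {k : ZMod 3} {g : Lin.L} (hgv : ∀ v, g v = Lin.w2f k v) {x : P} (hx : x ∈ A) : lft g x = w2 k x := by
  obtain ⟨xa, xb, xc⟩ := hx
  ext <;> simp [lft, vec, crd, hgv, Lin.w2f, w2, xa, xb, xc]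

theorem norm_w2 {k : ZMod 3} {g : Lin.L} (hgv : ∀ v, g v = Lin.w2f k v) : ∀ r ∈ R2, g * Lin.tl r.a r.b r.c * g⁻¹ ∈ Lin.T := by
  intro r (hr : r.b = 0)
  refine ⟨-r.c, 0, r.a, ?_⟩
  rw [mul_inv_eq_iff_eq_mul, hr]
  refine LinearEquiv.ext fun v => ?_
  simp only [LinearEquiv.mul_apply, Lin.tl_apply, hgv]
  funext i
  fin_cases i <;> simp [Lin.w2f, Lin.tf] <;> ring

theorem lift1_core {F : FusionSystem (⊤ : Subgroup P)} (ht : Mp F ⊤ (tor 1 (-1) 1)) {f : P → P} (hf : Mp F R1 f)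
    (hf1 : ∀ x ∈ A, f x = w1 x) : Mp F R1 w1 := by
  have hmul : ∀ x ∈ R1, ∀ y ∈ R1, f (x * y) = f x * f y := fun x hx y hy => hf.mul hx hy
  have hws : ∀ y ∈ A, ∃ x ∈ A, w1 x = y := by
    rintro y ⟨ya, yb, yc⟩
    refine ⟨⟨0, 0, 0, y.m22, -y.m12, y.m11, y.m23, -y.m13, y.m33⟩, ⟨rfl, rfl, rfl⟩, ?_⟩
    ext <;> simp [w1, ya, yb, yc]
  have hfR1 : ∀ x ∈ R1, f x ∈ R1 := by
    intro x hx
    have h1 := diff_A A_le_R1 hmul (fun x hx y hy => w1_mul hx hy) hf1 hws hx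
    have h2 : (w1 x) ∈ R1 := hx
    have h3 := mul_mem h2 (A_le_R1 h1)
    rwa [mul_inv_cancel_left] at h3
  have hfA : ∀ x ∈ A, f x ∈ A := by
    intro x hx
    rw [hf1 x hx]
    obtain ⟨xa, xb, xc⟩ := hx
    exact ⟨by simp [w1, xa], by simp [w1, xc], by simp [w1, xb]⟩
  obtain ⟨B, hB, -, hBA, hBt⟩ := exists_comm A_le_R1 ht (f := f)
    (by
      intro x
      ext <;> simp [tor])
    (by
      intro x (hx : x.a = 0)
      show (1 : ZMod 3) * x.a = 0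
      rw [hx, mul_zero])
    (by
      rintro x ⟨h1, h2, h3⟩
      exact ⟨by simp [tor, h1], by simp [tor, h2], by simp [tor, h3]⟩)
    hf hfR1 hfA
    (by
      intro x hx
      have hx' : tor 1 (-1) 1 x ∈ A := by
        obtain ⟨h1, h2, h3⟩ := hx
        exact ⟨by simp [tor, h1], by simp [tor, h2], by simp [tor, h3]⟩
      rw [hf1 _ hx', hf1 x hx]
      ext <;> simp [tor, w1])
  obtain ⟨s, hs⟩ := fin1 (fun x hx y hy => hB.mul hx hy) (fun x hx => by rw [hBA x hx, hf1 x hx]) hBt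
  have h1 : Mp F R1 (fun x => s⁻¹ * x * s⁻¹⁻¹) := mp_conj F le_top (mem_top _)
  refine (h1.comp hB fun x hx => normal_R1 s⁻¹ hx).congr fun x hx => ?_
  rw [hs _ (normal_R1 s⁻¹ hx)]
  congr 1
  group

theorem lift2_core {F : FusionSystem (⊤ : Subgroup P)} (ht : Mp F ⊤ (tor (-1) 1 1)) {k : ZMod 3} {f : P → P}
    (hf : Mp F R2 f) (hf1 : ∀ x ∈ A, f x = w2 k x) : Mp F R2 (w2 k) := by
  have hmul : ∀ x ∈ R2, ∀ y ∈ R2, f (x * y) = f x * f y := fun x hx y hy => hf.mul hx hy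
  have hws : ∀ y ∈ A, ∃ x ∈ A, w2 k x = y := by
    rintro y ⟨ya, yb, yc⟩
    refine ⟨⟨0, 0, 0, y.m11 - k * (y.m33 - y.m22), y.m13, y.m33, -y.m12, -y.m23, y.m22⟩, ⟨rfl, rfl, rfl⟩, ?_⟩
    ext <;> simp [w2, ya, yb, yc]
  have hfR1 : ∀ x ∈ R2, f x ∈ R2 := by
    intro x hx
    have h1 := diff_A A_le_R2 hmul (fun x hx y hy => w2_mul k hx hy) hf1 hws hx
    have h2 : (w2 k x) ∈ R2 := hx
    have h3 := mul_mem h2 (A_le_R2 h1)
    rwa [mul_inv_cancel_left] at h3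
  have hfA : ∀ x ∈ A, f x ∈ A := by
    intro x hx
    rw [hf1 x hx]
    obtain ⟨xa, xb, xc⟩ := hx
    exact ⟨by simp [w2, xc], by simp [w2, xb], by simp [w2, xa]⟩
  obtain ⟨B, hB, -, hBA, hBt⟩ := exists_comm A_le_R2 ht (f := f)
    (by
      intro x
      ext <;> simp [tor])
    (by
      intro x (hx : x.b = 0)
      show (1 : ZMod 3) * x.b = 0
      rw [hx, mul_zero])
    (by
      rintro x ⟨h1, h2, h3⟩
      exact ⟨by simp [tor, h1], by simp [tor, h2], by simp [tor, h3]⟩)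
    hf hfR1 hfA
    (by
      intro x hx
      have hx' : tor (-1) 1 1 x ∈ A := by
        obtain ⟨h1, h2, h3⟩ := hx
        exact ⟨by simp [tor, h1], by simp [tor, h2], by simp [tor, h3]⟩
      rw [hf1 _ hx', hf1 x hx]
      ext <;> simp [tor, w2])
  obtain ⟨s, hs⟩ := fin2 (fun x hx y hy => hB.mul hx hy) (fun x hx => by rw [hBA x hx, hf1 x hx]) hBt
  have h1 : Mp F R2 (fun x => s⁻¹ * x * s⁻¹⁻¹) := mp_conj F le_top (mem_top _)
  refine (h1.comp hB fun x hx => normal_R2 s⁻¹ hx).congr fun x hx => ?_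
  rw [hs _ (normal_R2 s⁻¹ hx)]
  congr 1
  group

end Cfsg.Agent.H623.CoLift
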