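import Cfsg.Agent.H623.CoLift
import Cfsg.Agent.H802.FusNorm

/-!
# S5227, task C10: `lift1`, `lift2` (helper623)

`ext_GF` (also task C9) is proved here as well.
-/

set_option autoImplicit false
set_option linter.style.longLine false

namespace Cfsg.Agent.H623.CoLift

open Subgroup Cfsg Cfsg.Agent.H752 Cfsg.Agent.H776.Co P Cfsg.FusionSystem

theorem normalizerIn_A : normalizerIn (⊤ : Subgroup P) A = ⊤ := by
  refine eq_top_iff.2 fun x _ => ⟨mem_top x, ?_⟩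
  refine mem_normalizer_iff.2 ?_
  intro y
  refine ⟨fun hy => conj_A x hy, fun hy => ?_⟩
  have := conj_A x⁻¹ hy
  have h1 : x⁻¹ * (x * y * x⁻¹) * x⁻¹⁻¹ = y := by group
  rwa [h1] at this

theorem receptive_A {F : FusionSystem (⊤ : Subgroup P)} (hF : F.IsSaturated 3) : F.IsReceptive A := by
  have : Fact (Nat.Prime 3) := ⟨Nat.prime_three⟩
  refine Cfsg.Agent.H802.isReceptive_of_isFullyNormalized (isPGroup_P.to_subgroup ⊤) hF ⟨le_top, fun Q _ => ?_⟩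
  rw [normalizerIn_A]
  exact Subgroup.card_le_of_le le_top

theorem ext_GF {F : FusionSystem (⊤ : Subgroup P)} (hF : F.IsSaturated 3) {g : Lin.L} (hg : g ∈ GF F) {R : Subgroup P} (hR : A ≤ R)
    (hn : ∀ r ∈ R, g * Lin.tl r.a r.b r.c * g⁻¹ ∈ Lin.T) :
    ∃ f, Mp F R f ∧ (∀ x ∈ A, f x = lft g x) ∧ ∀ r ∈ R, Lin.tl (f r).a (f r).b (f r).c = g * Lin.tl r.a r.b r.c * g⁻¹ := by
  obtain ⟨φ, hφ, h1⟩ := hg
  have hr : φ.range = A := Cfsg.Agent.H802.range_eq_of_mapsTo hφ fun x => by rw [h1 x x.2]; exact lft_mem _ _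
  obtain ⟨ψ, hψ, h2⟩ := (receptive_A hF).2 A φ hφ hr
  have hle : R ≤ extender ⊤ A φ := by
    intro r hrR
    refine Subgroup.subset_closure ⟨mem_top r, ?_, ?_⟩
    · have : r ∈ normalizerIn (⊤ : Subgroup P) A := by rw [normalizerIn_A]; exact mem_top r
      exact this.2
    · obtain ⟨a, b, c, habc⟩ := hn r hrR
      refine ⟨⟨a, b, c, 0, 0, 0, 0, 0, 0⟩, mem_top _, fun x hx => ?_⟩
      rw [h1 _ hx, h1 x x.2]
      obtain ⟨v, hv⟩ : ∃ v, (x : P) = vec v := ⟨crd x, (vec_crd x.2).symm⟩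
      rw [hv, conj_vec, lft_vec, lft_vec, conj_vec]
      congr 1
      have h3 : g * Lin.tl r.a r.b r.c = Lin.tl a b c * g := by rw [← habc]; group
      exact LinearEquiv.congr_fun h3 v
  have hf : Mp F R (ex ψ) := (mp_ex hψ).res hle
  have hfA : ∀ x ∈ A, ex ψ x = lft g x := by
    intro x hx
    rw [ex_apply _ (hle (hR hx)), h2 x hx, h1 x hx]
  refine ⟨ex ψ, hf, hfA, fun r hrR => ?_⟩
  rw [eq_mul_inv_iff_mul_eq]
  refine LinearEquiv.ext fun v => ?_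
  have h3 : ex ψ (r * vec v) = ex ψ (r * vec v * r⁻¹) * ex ψ r := by
    rw [← hf.mul (hR (conj_A r (vec_mem v))) hrR, inv_mul_cancel_right]
  rw [hf.mul hrR (hR (vec_mem v)), conj_vec, hfA _ (vec_mem _), hfA _ (vec_mem _), lft_vec, lft_vec,
    ← mul_inv_eq_iff_eq_mul, conj_vec] at h3
  exact vec_injective h3

theorem lift1 {F : FusionSystem (⊤ : Subgroup P)} (hF : F.IsSaturated 3) (ht : Mp F ⊤ (tor 1 (-1) 1))
    (hw : ∃ g ∈ GF F, ∀ v, g v = Lin.w1f v) : Mp F R1 w1 := by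
  obtain ⟨g, hg, hgv⟩ := hw
  obtain ⟨f, hf, hfA, -⟩ := ext_GF hF hg A_le_R1 (norm_w1 hgv)
  exact lift1_core ht hf fun x hx => by rw [hfA x hx, lft_w1 hgv hx]

theorem lift2 {F : FusionSystem (⊤ : Subgroup P)} (hF : F.IsSaturated 3) (ht : Mp F ⊤ (tor (-1) 1 1)) {k : ZMod 3}
    (hw : ∃ g ∈ GF F, ∀ v, g v = Lin.w2f k v) : Mp F R2 (w2 k) := by
  obtain ⟨g, hg, hgv⟩ := hw
  obtain ⟨f, hf, hfA, -⟩ := ext_GF hF hg A_le_R2 (norm_w2 hgv)
  exact lift2_core ht hf fun x hx => by rw [hfA x hx, lft_w2 hgv hx]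

end Cfsg.Agent.H623.CoLift
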