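import Mathlib
import Cfsg.Agent.H809.OddAct

/-!
# Alternating forms on small abelian groups, invariant under a group of automorphisms

`IsAlt A ω`: `ω : V → V → Z` is bimultiplicative, alternating and `A`-invariant.

* `card_sixteen`: `V` elementary abelian of order 16, `ω ≠ 1` with at most one nontrivial value,
  `|A|` odd: then `|A|` is 1, 3, 5 or 9;
* `card_eight`: the same for order 8: `|A|` is 1 or 3;
* `free_nine`, `card_nine`: `|V| = 9`, `ω ≠ 1`, `|A|` prime to 3: `A` acts freely, `|A|` is 1, 2, 4, 8.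
-/

set_option autoImplicit false
set_option linter.unusedSectionVars false

namespace Cfsg.Agent.H623.CommForm

open Subgroup Cfsg.Agent.H809.OddAct

variable {V : Type*} [CommGroup V] {Z : Type*} [CommGroup Z]

/-- An alternating form, invariant under a group of automorphisms. -/
structure IsAlt (A : Subgroup (MulAut V)) (ω : V → V → Z) : Prop where
  mul_left : ∀ x y z, ω (x * y) z = ω x z * ω y z
  mul_right : ∀ x y z, ω x (y * z) = ω x y * ω x z
  self : ∀ x, ω x x = 1
  inv : ∀ a ∈ A, ∀ x y, ω (a x) (a y) = ω x y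

variable {A : Subgroup (MulAut V)} {ω : V → V → Z}

namespace IsAlt

theorem one_right (h : IsAlt A ω) (x : V) : ω x 1 = 1 := by
  have h1 := h.mul_right x 1 1
  rw [mul_one] at h1
  exact (left_eq_mul.1 h1)

theorem one_left (h : IsAlt A ω) (x : V) : ω 1 x = 1 := by
  have h1 := h.mul_left 1 1 x
  rw [mul_one] at h1
  exact (left_eq_mul.1 h1)

theorem swap (h : IsAlt A ω) (x y : V) : ω x y * ω y x = 1 := by
  have h1 := h.self (x * y)
  rw [h.mul_left, h.mul_right, h.mul_right, h.self, h.self, one_mul, mul_one] at h1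
  exact h1

theorem inv_right (h : IsAlt A ω) (x y : V) : ω x y⁻¹ = (ω x y)⁻¹ := by
  have h1 := h.mul_right x y y⁻¹
  rw [mul_inv_cancel, h.one_right] at h1
  exact (inv_eq_of_mul_eq_one_right h1.symm).symm

theorem sq (h : IsAlt A ω) (hsq : ∀ v : V, v * v = 1) (x y : V) : ω x y * ω x y = 1 := by
  rw [← h.mul_right, hsq, h.one_right]

theorem symm (h : IsAlt A ω) (hsq : ∀ v : V, v * v = 1) (x y : V) : ω x y = ω y x := by
  have h1 := h.swap x y
  have h2 := h.sq hsq y x
  exact mul_right_cancel (h1.trans h2.symm)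

/-- The kernel of `ω x`. -/
def ker (h : IsAlt A ω) (x : V) : Subgroup V where
  carrier := {y | ω x y = 1}
  one_mem' := h.one_right x
  mul_mem' := by
    intro y z hy hz
    change ω x (y * z) = 1
    rw [h.mul_right, show ω x y = 1 from hy, show ω x z = 1 from hz, mul_one]
  inv_mem' := by
    intro y hy
    change ω x y⁻¹ = 1
    rw [h.inv_right, show ω x y = 1 from hy, inv_one]

theorem mem_ker (h : IsAlt A ω) {x y : V} : y ∈ h.ker x ↔ ω x y = 1 := Iff.rfl

theorem fx_cm (h : IsAlt A ω) {B : Subgroup (MulAut V)} (hBA : B ≤ A) {u w : V} (hu : u ∈ Fx B)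
    (hw : w ∈ Cm B) : ω u w = 1 := by
  have h1 : Cm B ≤ h.ker u := by
    rw [Cm, closure_le]
    rintro _ ⟨b, hb, v, rfl⟩
    change ω u (b v * v⁻¹) = 1
    rw [h.mul_right, h.inv_right]
    nth_rewrite 1 [← hu b hb]
    rw [h.inv b (hBA hb), mul_inv_cancel]
  exact h1 hw

end IsAlt

variable [Finite V]

theorem exists_seven_orbit (hV : IsPGroup 2 V) (hcard : Nat.card V ≤ 32)
    {P : Subgroup (MulAut V)} (hP : Nat.card P = 7) {x : V} (hx : x ∈ Cm P) (hx1 : x ≠ 1) {y : V}
    (hy : y ∈ Cm P) (hy1 : y ≠ 1) : ∃ s ∈ P, s x = y := by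
  classical
  obtain ⟨hCm, -, -, -⟩ := seven_card hV hcard hP
  have hodd : Odd (Nat.card P) := by rw [hP]; decide
  have h1 := orb P x
  have h2 : Nat.card (St P x) = 1 := by
    have h3 : Nat.card (St P x) ∣ 7 := by rw [← h1.trans hP]; exact Dvd.intro_left _ rfl
    rcases (Nat.dvd_prime (by norm_num)).1 h3 with h4 | h4
    · exact h4
    · exfalso
      have h5 : St P x = P := eq_of_le_of_card_ge (St_le P x) (by rw [h4, hP])
      apply hx1
      refine fx_cm hV hodd ?_ hx
      intro b hb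
      rw [← h5] at hb
      exact hb.2
  rw [h2, mul_one, hP] at h1
  by_contra hcon
  push Not at hcon
  -- the orbit, `1` and `y` are too many
  have := Fintype.ofFinite V
  have h3 : Nat.card {v : V // ∃ a ∈ P, a x = v} =
      (Finset.univ.filter fun v : V => ∃ a ∈ P, a x = v).card := by
    rw [Nat.card_eq_fintype_card, Fintype.card_subtype]
  have h4 : Nat.card (Cm P) = (Finset.univ.filter fun v : V => v ∈ Cm P).card := by
    rw [Nat.card_eq_fintype_card, Fintype.card_subtype]
  have h5 : insert 1 (insert y (Finset.univ.filter fun v : V => ∃ a ∈ P, a x = v)) ⊆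
      Finset.univ.filter fun v : V => v ∈ Cm P := by
    intro v hv
    simp only [Finset.mem_insert, Finset.mem_filter, Finset.mem_univ, true_and] at hv ⊢
    rcases hv with rfl | rfl | ⟨a, ha, rfl⟩
    · exact (Cm P).one_mem
    · exact hy
    · exact cm_inv (fun c hc => P.mul_mem (P.mul_mem ha hc) (P.inv_mem ha)) hx
  have h6 := Finset.card_le_card h5
  rw [Finset.card_insert_of_notMem, Finset.card_insert_of_notMem, ← h3, ← h4, h1, hCm] at h6
  · omega
  · simp only [Finset.mem_filter, Finset.mem_univ, true_and]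
    rintro ⟨a, ha, h7⟩
    exact hcon a ha h7
  · simp only [Finset.mem_insert, Finset.mem_filter, Finset.mem_univ, true_and]
    rintro (h7 | ⟨a, ha, h7⟩)
    · exact hy1 h7.symm
    · exact hx1 ((MulEquiv.map_eq_one_iff a).1 h7)

theorem eq_one_of_pow {P : Subgroup (MulAut V)} (hP : Nat.card P = 7) (hV : IsPGroup 2 V)
    {x : V} (hx : x ∈ Cm P) (hx1 : x ≠ 1) {s : MulAut V} (hs : s ∈ P) {n : ℕ} (hn : n = 1 ∨ n = 2 ∨ n = 3)
    (h : (s ^ n) x = x) : s = 1 := by
  have hodd : Odd (Nat.card P) := by rw [hP]; decide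
  by_contra hs1
  apply hx1
  refine Cfsg.Agent.H809.OddAct.fx_cm hV hodd ?_ hx
  have h7 : Nat.Prime (Nat.card P) := by rw [hP]; norm_num
  have : Fact (Nat.card P).Prime := ⟨h7⟩
  have hsn : (⟨s, hs⟩ : P) ^ n ≠ 1 := by
    intro h1
    have h2 := orderOf_dvd_of_pow_eq_one h1
    have h3 : orderOf (⟨s, hs⟩ : P) ∣ 7 := by rw [← hP]; exact orderOf_dvd_natCard _
    have h4 : orderOf (⟨s, hs⟩ : P) ∣ Nat.gcd n 7 := Nat.dvd_gcd h2 h3
    have h5 : Nat.gcd n 7 = 1 := by rcases hn with rfl | rfl | rfl <;> norm_num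
    rw [h5, Nat.dvd_one, orderOf_eq_one_iff] at h4
    exact hs1 (congrArg Subtype.val h4)
  intro b hb
  have h1 : (⟨b, hb⟩ : P) ∈ zpowers ((⟨s, hs⟩ : P) ^ n) :=
    mem_zpowers_of_prime_card (G := P) (p := Nat.card P) rfl hsn
  obtain ⟨k, hk⟩ := mem_zpowers_iff.1 h1
  have h2 : b = (s ^ n) ^ k := by
    have := congrArg Subtype.val hk
    simpa using this.symm
  have h3 : s ^ n ∈ St P x := ⟨P.pow_mem hs n, h⟩
  rw [h2]
  exact ((St P x).zpow_mem h3 k).2

/-- There is no nontrivial invariant form for a group of order 7. -/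
theorem seven_trivial (hV : IsPGroup 2 V) (hcard : Nat.card V ≤ 16) (h : IsAlt A ω)
    (hsq : ∀ v : V, v * v = 1) {z : Z} (hz : ∀ x y, ω x y = 1 ∨ ω x y = z)
    {P : Subgroup (MulAut V)} (hPA : P ≤ A) (hP : Nat.card P = 7) (x y : V) : ω x y = 1 := by
  classical
  obtain ⟨hCm, hV8, hsup, -⟩ := seven_card hV (hcard.trans (by norm_num)) hP
  have hFx : Nat.card (Fx P) ≤ 2 := by omega
  have := Fintype.ofFinite V
  have hcm : ∀ x ∈ Cm P, ∀ y ∈ Cm P, ω x y = 1 := by
    intro x hx y₀ hy₀
    by_contra hne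
    have hz0 : ω x y₀ = z := (hz x y₀).resolve_left hne
    have hzz : z * z = 1 := by rw [← hz0]; exact h.sq hsq x y₀
    have hx1 : x ≠ 1 := by
      rintro rfl
      exact hne (h.one_left _)
    -- a nontrivial element orthogonal to `x`
    obtain ⟨y₁, hy₁, hy11, hy1x, hxy₁⟩ : ∃ y₁ ∈ Cm P, y₁ ≠ 1 ∧ y₁ ≠ x ∧ ω x y₁ = 1 := by
      obtain ⟨y, hy, hyn⟩ : ∃ y ∈ Cm P, y ∉ ({1, x, y₀, x * y₀} : Finset V) := by
        by_contra hcon
        push Not at hcon
        have h4 : Nat.card (Cm P) = (Finset.univ.filter fun v : V => v ∈ Cm P).card := by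
          rw [Nat.card_eq_fintype_card, Fintype.card_subtype]
        have h5 : (Finset.univ.filter fun v : V => v ∈ Cm P) ⊆ ({1, x, y₀, x * y₀} : Finset V) := by
          intro v hv
          exact hcon v (by simpa using hv)
        have h6 := (Finset.card_le_card h5).trans Finset.card_le_four
        omega
      simp only [Finset.mem_insert, Finset.mem_singleton, not_or] at hyn
      obtain ⟨hy1, hyx, hyy, hyxy⟩ := hyn
      rcases hz x y with h1 | h1
      · exact ⟨y, hy, hy1, hyx, h1⟩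
      · refine ⟨y * y₀, (Cm P).mul_mem hy hy₀, ?_, ?_, ?_⟩
        · intro h2
          apply hyy
          rw [← mul_one y, ← hsq y₀, ← mul_assoc, h2, one_mul]
        · intro h2
          apply hyxy
          rw [← mul_one y, ← hsq y₀, ← mul_assoc, h2]
        · rw [h.mul_right, h1, hz0, hzz]
    obtain ⟨s, hs, hsx⟩ := exists_seven_orbit hV (hcard.trans (by norm_num)) hP hx hx1 hy₁ hy11
    have hs1 : s ≠ 1 := by
      rintro rfl
      exact hy1x (hsx.symm.trans rfl)
    have hinv : ∀ {v : V}, v ∈ Cm P → s v ∈ Cm P := fun hv =>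
      cm_inv (fun c hc => P.mul_mem (P.mul_mem hs hc) (P.inv_mem hs)) hv
    have hxs : ω x (s x) = 1 := by rw [hsx]; exact hxy₁
    -- the kernel of `ω (s x)`
    set K : Subgroup V := h.ker (s x) ⊓ Cm P with hK
    have hKlt : K < Cm P := by
      refine lt_of_le_of_ne inf_le_right fun hKe => ?_
      have h1 : s y₀ ∈ K := by rw [hKe]; exact hinv hy₀
      have h2 : ω (s x) (s y₀) = 1 := h1.1
      rw [h.inv s (hPA hs)] at h2
      exact hne h2
    have hK4 : Nat.card K ≤ 4 := by
      have h1 : Nat.card K ∣ 8 := by rw [← hCm]; exact card_dvd_of_le hKlt.le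
      have h2 : Nat.card K < 8 := by rw [← hCm]; exact Set.ncard_lt_ncard hKlt (Set.toFinite _)
      have h3 : Nat.card K ≤ 8 := h2.le
      interval_cases hc : Nat.card K <;> omega
    have hmem : ∀ v ∈ ({1, x, s x, x * s x, s (s x)} : Finset V), v ∈ K := by
      have e0 : (1 : V) ∈ K := K.one_mem
      have e1 : x ∈ K := ⟨(h.symm hsq (s x) x).trans hxs, hx⟩
      have e2 : s x ∈ K := ⟨h.self _, hinv hx⟩
      have e3 : s (s x) ∈ K := ⟨(h.inv s (hPA hs) x (s x)).trans hxs, hinv (hinv hx)⟩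
      intro v hv
      simp only [Finset.mem_insert, Finset.mem_singleton] at hv
      rcases hv with rfl | rfl | rfl | rfl | rfl
      · exact e0
      · exact e1
      · exact e2
      · exact K.mul_mem e1 e2
      · exact e3
    have hsx1 : s x ≠ 1 := fun h1 => hx1 ((MulEquiv.map_eq_one_iff s).1 h1)
    have hssx1 : s (s x) ≠ 1 := fun h1 => hsx1 ((MulEquiv.map_eq_one_iff s).1 h1)
    have hsxx : s x ≠ x := fun h1 => hs1 (eq_one_of_pow hP hV hx hx1 hs (n := 1) (by tauto)
      (by rw [pow_one]; exact h1))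
    have hcard5 : ({1, x, s x, x * s x, s (s x)} : Finset V).card = 5 := by
      rw [Finset.card_insert_of_notMem, Finset.card_insert_of_notMem, Finset.card_insert_of_notMem,
        Finset.card_insert_of_notMem, Finset.card_singleton]
      · rw [Finset.mem_singleton]
        intro h1
        apply hs1
        refine eq_one_of_pow hP hV hx hx1 hs (n := 3) (by tauto) ?_
        change s (s (s x)) = x
        rw [← h1, map_mul, ← h1, mul_comm x, ← mul_assoc, hsq, one_mul]
      · simp only [Finset.mem_insert, Finset.mem_singleton, not_or]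
        refine ⟨?_, ?_⟩
        · intro h1
          exact hx1 (right_eq_mul.1 h1)
        · intro h1
          exact hsxx (s.injective h1).symm
      · simp only [Finset.mem_insert, Finset.mem_singleton, not_or]
        refine ⟨fun h1 => hsxx h1.symm, ?_, ?_⟩
        · intro h1
          exact hsx1 (left_eq_mul.1 h1)
        · intro h1
          exact hs1 (eq_one_of_pow hP hV hx hx1 hs (n := 2) (by tauto) h1.symm)
      · simp only [Finset.mem_insert, Finset.mem_singleton, not_or]
        refine ⟨fun h1 => hx1 h1.symm, fun h1 => hsx1 h1.symm, ?_, fun h1 => hssx1 h1.symm⟩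
        intro h1
        apply hsxx
        rw [← mul_one (s x), ← hsq x, mul_comm x x, ← mul_assoc, mul_comm (s x), ← h1, one_mul]
    have hle : ({1, x, s x, x * s x, s (s x)} : Finset V).card ≤ Nat.card K := by
      have h4 : Nat.card K = (Finset.univ.filter fun v : V => v ∈ K).card := by
        rw [Nat.card_eq_fintype_card, Fintype.card_subtype]
      rw [h4]
      refine Finset.card_le_card fun v hv => ?_
      simp only [Finset.mem_filter, Finset.mem_univ, true_and]
      exact hmem v hv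
    omega
  have hfx : ∀ u ∈ Fx P, ∀ w ∈ Fx P, ω u w = 1 := by
    intro u hu w hw
    by_cases hu1 : u = 1
    · rw [hu1, h.one_left]
    by_cases hw1 : w = 1
    · rw [hw1, h.one_right]
    have huw : u = w := by
      by_contra hne
      have h3 : ({1, u, w} : Finset V).card = 3 := by
        rw [Finset.card_eq_three]
        exact ⟨1, u, w, fun h => hu1 h.symm, fun h => hw1 h.symm, hne, rfl⟩
      have h4 : Nat.card (Fx P) = (Finset.univ.filter fun v : V => v ∈ Fx P).card := by
        rw [Nat.card_eq_fintype_card, Fintype.card_subtype]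
      have h5 : ({1, u, w} : Finset V) ⊆ (Finset.univ.filter fun v : V => v ∈ Fx P) := by
        intro v hv
        simp only [Finset.mem_insert, Finset.mem_singleton, Finset.mem_filter, Finset.mem_univ,
          true_and] at hv ⊢
        rcases hv with rfl | rfl | rfl
        · exact (Fx P).one_mem
        · exact hu
        · exact hw
      have h6 := Finset.card_le_card h5
      omega
    rw [huw, h.self]
  have hall : ∀ v : V, ∃ u ∈ Fx P, ∃ w ∈ Cm P, u * w = v := by
    intro v
    have h1 : v ∈ Fx P ⊔ Cm P := by rw [hsup]; exact mem_top v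
    exact mem_sup.1 h1
  obtain ⟨u, hu, w, hw, rfl⟩ := hall x
  obtain ⟨u', hu', w', hw', rfl⟩ := hall y
  rw [h.mul_left, h.mul_right, h.mul_right, hfx u hu u' hu', h.fx_cm hPA hu hw',
    h.symm hsq w u', h.fx_cm hPA hu' hw, hcm w hw w' hw']
  simp

/-- There is no nontrivial invariant form if `15` divides the order of the group. -/
theorem fifteen_trivial (hcard : Nat.card V = 16) (h : IsAlt A ω) (hsq : ∀ v : V, v * v = 1)
    (h45 : Nat.card A ∣ 45) (h15 : 15 ∣ Nat.card A) (x y : V) : ω x y = 1 := by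
  classical
  have hV : IsPGroup 2 V := IsPGroup.of_card (n := 4) (by rw [hcard]; norm_num)
  have hcA : ∀ a ∈ A, ∀ b ∈ A, a * b = b * a := fun a ha b hb =>
    congrArg Subtype.val (comm_45 h45 ⟨a, ha⟩ ⟨b, hb⟩)
  have : Fintype V := Fintype.ofFinite V
  have hfinA : Finite A := Finite.of_finite_univ (Set.toFinite _)
  have : Fact (Nat.Prime 3) := ⟨by norm_num⟩
  have : Fact (Nat.Prime 5) := ⟨by norm_num⟩
  obtain ⟨⟨k, hkA⟩, hk⟩ := exists_prime_orderOf_dvd_card' (G := A) 5 ((by norm_num : 5 ∣ 15).trans h15)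
  obtain ⟨⟨t, htA⟩, ht⟩ := exists_prime_orderOf_dvd_card' (G := A) 3 ((by norm_num : 3 ∣ 15).trans h15)
  rw [Subgroup.orderOf_mk] at hk ht
  have hfix : ∀ s ∈ A, s ≠ 1 → ∀ x : V, s x = x → x = 1 := by
    have hKp : IsPGroup 5 (zpowers k) := IsPGroup.of_card (n := 1) (by rw [Nat.card_zpowers, hk, pow_one])
    have hKne : zpowers k ≠ ⊥ := by
      intro h1
      rw [zpowers_eq_bot] at h1
      rw [h1, orderOf_one] at hk
      omega
    have hK1 : Nat.card (Fx (zpowers k)) = 1 := by
      have h1 := fx_univ (zpowers k) hKp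
      obtain ⟨j, hj, hj32, -⟩ := two_pow hV (Fx (zpowers k)) (n := 32) (by rw [hcard]; norm_num)
      have h2 := fx_card_ne hKne
      rw [hj, hcard] at h1 h2
      have h3 := le_five hj32
      rw [hj]
      interval_cases j
      · rfl
      all_goals exfalso; revert h1 h2; decide
    intro s hs hs1 x hx
    have hF : ∀ b ∈ zpowers k, ∀ v ∈ (Fx (zpowers s) : Set V), b v ∈ (Fx (zpowers s) : Set V) := by
      rintro b hb v hv
      have hbA : b ∈ A := (zpowers_le.2 hkA) hb
      intro c hc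
      have hcA' : c ∈ A := (zpowers_le.2 hs) hc
      rw [← MulAut.mul_apply, hcA c hcA' b hbA, MulAut.mul_apply, hv c hc]
    have h1 := card_modEq hKp _ hF
    rw [fix_card] at h1
    have h2 : Nat.card (Fx (zpowers k) ⊓ Fx (zpowers s) : Subgroup V) = 1 := by
      have h3 : Nat.card (Fx (zpowers k) ⊓ Fx (zpowers s) : Subgroup V) ∣ Nat.card (Fx (zpowers k)) :=
        card_dvd_of_le inf_le_left
      rw [hK1] at h3
      exact Nat.dvd_one.1 h3
    rw [h2] at h1
    obtain ⟨j, hj, hj32, -⟩ := two_pow hV (Fx (zpowers s)) (n := 32) (by rw [hcard]; norm_num)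
    have hne : zpowers s ≠ ⊥ := by
      intro h3
      rw [zpowers_eq_bot] at h3
      exact hs1 h3
    have h3 := fx_card_ne hne
    have h1' : Nat.card (Fx (zpowers s)) ≡ 1 [MOD 5] := h1
    rw [hj] at h1' h3
    rw [hcard] at h3
    have h4 := le_five hj32
    have h5 : Nat.card (Fx (zpowers s)) = 1 := by
      rw [hj]
      interval_cases j
      · rfl
      all_goals exfalso; revert h1' h3; decide
    have h6 : x ∈ Fx (zpowers s) := by
      intro b hb
      have h7 : s ∈ St A x := ⟨hs, hx⟩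
      exact ((zpowers_le.2 h7) hb).2
    rw [card_eq_one] at h5
    rw [h5] at h6
    exact mem_bot.1 h6
  -- transitivity
  have htrans : ∀ x y : V, x ≠ 1 → y ≠ 1 → ∃ a ∈ A, a x = y := by
    intro x y hx hy
    by_contra hcon
    push Not at hcon
    have h1 := orb A x
    have h2 : St A x = ⊥ := by
      rw [eq_bot_iff]
      intro s hs
      rw [mem_bot]
      by_contra hs1
      exact hx (hfix s hs.1 hs1 x hs.2)
    rw [h2, card_bot, mul_one] at h1
    have h3 : Nat.card {v : V // ∃ a ∈ A, a x = v} =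
        (Finset.univ.filter fun v : V => ∃ a ∈ A, a x = v).card := by
      rw [Nat.card_eq_fintype_card, Fintype.card_subtype]
    have h6 := Finset.card_le_univ
      (insert 1 (insert y (Finset.univ.filter fun v : V => ∃ a ∈ A, a x = v)))
    rw [Finset.card_insert_of_notMem, Finset.card_insert_of_notMem, ← h3, h1,
      ← Nat.card_eq_fintype_card, hcard] at h6
    · have h7 := Nat.le_of_dvd Nat.card_pos h15
      omega
    · simp only [Finset.mem_filter, Finset.mem_univ, true_and]
      rintro ⟨a, ha, h7⟩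
      exact hcon a ha h7
    · simp only [Finset.mem_insert, Finset.mem_filter, Finset.mem_univ, true_and]
      rintro (h7 | ⟨a, ha, h7⟩)
      · exact hy h7.symm
      · exact hx ((MulEquiv.map_eq_one_iff a).1 h7)
  have ht1 : t ≠ 1 := by
    rintro rfl
    rw [orderOf_one] at ht
    omega
  have ht3 : ∀ x, t (t (t x)) = x := by
    intro x
    have h1 : t ^ 3 = 1 := by rw [← ht]; exact pow_orderOf_eq_one t
    have h2 : (t ^ 3) x = x := by rw [h1]; rfl
    exact h2
  have hN : ∀ x, x * t (t x) = t x := by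
    intro x
    have h1 : x * t x * t (t x) = 1 := by
      refine hfix t htA ht1 _ ?_
      rw [map_mul, map_mul, ht3, mul_comm, mul_assoc]
    have h2 := hsq (t x)
    calc x * t (t x) = x * (t x * t x) * t (t x) := by rw [h2, mul_one]
      _ = t x * (x * t x * t (t x)) := by
        simp only [mul_assoc, mul_left_comm]
      _ = t x := by rw [h1, mul_one]
  have hq : ∀ x y, ω x (t y) * ω y (t x) = ω x y := by
    intro x y
    rw [← h.inv t htA y (t x), h.symm hsq (t y), ← h.mul_left, hN, h.inv t htA]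
  have hqq : ∀ x y, ω (x * y) (t (x * y)) = ω x (t x) * ω y (t y) * ω x y := by
    intro x y
    rw [map_mul, h.mul_left, h.mul_right, h.mul_right, ← hq x y]
    simp only [mul_assoc, mul_left_comm, mul_comm]
  have hqc : ∀ x y, x ≠ 1 → y ≠ 1 → ω x (t x) = ω y (t y) := by
    intro x y hx hy
    obtain ⟨a, ha, rfl⟩ := htrans x y hx hy
    rw [← MulAut.mul_apply, hcA t htA a ha, MulAut.mul_apply, h.inv a ha]
  have hmul1 : ∀ x y : V, x ≠ y → x * y ≠ 1 := by
    intro x y hxy h1
    apply hxy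
    rw [← mul_one x, ← hsq y, ← mul_assoc, h1, one_mul]
  -- the values
  have hval : ∀ x y : V, x ≠ 1 → y ≠ 1 → x ≠ y → ω x (t x) * ω x y = 1 := by
    intro x y hx hy hxy
    have h1 := hqq x y
    rw [← hqc x _ hx (hmul1 x y hxy), ← hqc x y hx hy, mul_assoc] at h1
    exact (left_eq_mul.1 h1)
  by_cases hx : x = 1
  · rw [hx, h.one_left]
  by_cases hy : y = 1
  · rw [hy, h.one_right]
  by_cases hxy : x = y
  · rw [hxy, h.self]
  obtain ⟨w, hw⟩ : ∃ w : V, w ∉ ({1, x, y, x * y} : Finset V) := by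
    by_contra hcon
    push Not at hcon
    have h1 : (Finset.univ : Finset V) ⊆ {1, x, y, x * y} := fun v _ => hcon v
    have h2 := (Finset.card_le_card h1).trans Finset.card_le_four
    rw [Finset.card_univ, ← Nat.card_eq_fintype_card, hcard] at h2
    omega
  simp only [Finset.mem_insert, Finset.mem_singleton, not_or] at hw
  obtain ⟨hw1, hwx, hwy, hwxy⟩ := hw
  have h1 := hval x y hx hy hxy
  have h2 := hval x w hx hw1 (fun h => hwx h.symm)
  have h3 := hval x (y * w) hx (hmul1 y w fun h => hwy h.symm) (by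
    intro h4
    apply hwxy
    rw [h4, mul_comm y w, mul_assoc, hsq, mul_one])
  rw [h.mul_right] at h3
  have h4 : ω x (t x) * (ω x y * ω x w) = ω x w := by rw [← mul_assoc, h1, one_mul]
  rw [h4] at h3
  rw [h3, mul_one] at h2
  rw [h2, one_mul] at h1
  exact h1

theorem odd_dvd (hV : IsPGroup 2 V) (hA : Odd (Nat.card A)) {k : ℕ} (hk : Nat.card V = 2 ^ k)
    {m : ℕ} (hm : ∀ d ≤ k, (∏ i : Fin d, (2 ^ d - 2 ^ (i : ℕ))) ∣ 2 ^ 10 * m) : Nat.card A ∣ m := by
  obtain ⟨d, M, hd, -, hdvd⟩ := Cfsg.Agent.BpSpor.card_mulAut_dvd hV hk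
  have h1 : Nat.card A ∣ 2 ^ M * ∏ i : Fin d, (2 ^ d - 2 ^ (i : ℕ)) :=
    (card_subgroup_dvd_card A).trans hdvd
  have h2 : Nat.Coprime (Nat.card A) (2 ^ M) := by
    apply Nat.Coprime.pow_right
    exact Nat.coprime_two_right.2 hA
  have h3 := (h2.dvd_of_dvd_mul_left h1).trans (hm d hd)
  have h5 : Nat.Coprime (Nat.card A) (2 ^ 10) := by
    apply Nat.Coprime.pow_right
    exact Nat.coprime_two_right.2 hA
  exact h5.dvd_of_dvd_mul_left h3

theorem not_seven_dvd (hV : IsPGroup 2 V) (hcard : Nat.card V ≤ 16) (h : IsAlt A ω)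
    (hsq : ∀ v : V, v * v = 1) {z : Z} (hz : ∀ x y, ω x y = 1 ∨ ω x y = z)
    (hne : ∃ x y, ω x y ≠ 1) : ¬ 7 ∣ Nat.card A := by
  intro h7
  have : Fact (Nat.Prime 7) := ⟨by norm_num⟩
  have hfinA : Finite A := Finite.of_finite_univ (Set.toFinite _)
  obtain ⟨⟨k, hkA⟩, hk⟩ := exists_prime_orderOf_dvd_card' (G := A) 7 h7
  rw [Subgroup.orderOf_mk] at hk
  obtain ⟨x, y, hxy⟩ := hne
  exact hxy (seven_trivial hV hcard h hsq hz (zpowers_le.2 hkA) (by rw [Nat.card_zpowers, hk]) x y)

/-- The order 16. -/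
theorem card_sixteen (hcard : Nat.card V = 16) (hsq : ∀ v : V, v * v = 1) (hA : Odd (Nat.card A))
    (h : IsAlt A ω) {z : Z} (hz : ∀ x y, ω x y = 1 ∨ ω x y = z) (hne : ∃ x y, ω x y ≠ 1) :
    Nat.card A = 1 ∨ Nat.card A = 3 ∨ Nat.card A = 5 ∨ Nat.card A = 9 := by
  have hk : Nat.card V = 2 ^ 4 := by rw [hcard]; norm_num
  have hV : IsPGroup 2 V := IsPGroup.of_card hk
  have h315 : Nat.card A ∣ 7 * 45 := by
    refine odd_dvd hV hA hk fun d hd => ?_
    interval_cases d <;> decide
  have h7 := not_seven_dvd hV hcard.le h hsq hz hne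
  have h2 : Nat.Coprime (Nat.card A) 7 :=
    ((Nat.Prime.coprime_iff_not_dvd (by norm_num)).2 h7).symm
  have h45 := h2.dvd_of_dvd_mul_left h315
  have h15 : ¬ 15 ∣ Nat.card A := by
    intro h15
    obtain ⟨x, y, hxy⟩ := hne
    exact hxy (fifteen_trivial hcard h hsq h45 h15 x y)
  have hmem : Nat.card A ∈ Nat.divisors 45 := Nat.mem_divisors.2 ⟨h45, by norm_num⟩
  have hdiv : Nat.divisors 45 = {1, 3, 5, 9, 15, 45} := by decide
  rw [hdiv] at hmem
  simp only [Finset.mem_insert, Finset.mem_singleton] at hmem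
  rcases hmem with h1 | h1 | h1 | h1 | h1 | h1
  · tauto
  · tauto
  · tauto
  · tauto
  · exfalso; apply h15; rw [h1]
  · exfalso; apply h15; rw [h1]; norm_num

/-- The order 8. -/
theorem card_eight (hcard : Nat.card V = 8) (hsq : ∀ v : V, v * v = 1) (hA : Odd (Nat.card A))
    (h : IsAlt A ω) {z : Z} (hz : ∀ x y, ω x y = 1 ∨ ω x y = z) (hne : ∃ x y, ω x y ≠ 1) :
    Nat.card A = 1 ∨ Nat.card A = 3 := by
  have hk : Nat.card V = 2 ^ 3 := by rw [hcard]; norm_num
  have hV : IsPGroup 2 V := IsPGroup.of_card hk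
  have h21 : Nat.card A ∣ 7 * 3 := by
    refine odd_dvd hV hA hk fun d hd => ?_
    interval_cases d <;> decide
  have h7 := not_seven_dvd hV (by omega) h hsq hz hne
  have h2 : Nat.Coprime (Nat.card A) 7 :=
    ((Nat.Prime.coprime_iff_not_dvd (by norm_num)).2 h7).symm
  have h3 := h2.dvd_of_dvd_mul_left h21
  exact (Nat.dvd_prime (by norm_num)).1 h3

/-! ### order 9 -/

theorem nine_ker_ne_top (hcard : Nat.card V = 9) (h : IsAlt A ω) (hne : ∃ x y, ω x y ≠ 1) {v : V}
    (hv : v ≠ 1) : ∃ y, ω v y ≠ 1 := by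
  classical
  by_contra hcon
  push Not at hcon
  obtain ⟨x, y, hxy⟩ := hne
  apply hxy
  have hleft : ∀ x y, ω x y = 1 → ω y x = 1 := by
    intro x y h1
    have h2 := h.swap x y
    rw [h1, one_mul] at h2
    exact h2
  -- the kernel of `x` contains `v` and `x`
  have h1 : v ∈ h.ker x := hleft _ _ (hcon x)
  have h2 : x ∈ h.ker x := h.self x
  by_cases hx : x ∈ zpowers v
  · obtain ⟨k, rfl⟩ := mem_zpowers_iff.1 hx
    have h3 : v ∈ h.ker y := hleft _ _ (hcon y)
    exact hleft _ _ ((h.ker y).zpow_mem h3 k)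
  have h3 : zpowers v < h.ker x := lt_of_le_of_ne (zpowers_le.2 h1) (fun h4 => hx (h4 ▸ h2))
  have h4 : Nat.card (zpowers v) < Nat.card (h.ker x) := Set.ncard_lt_ncard h3 (Set.toFinite _)
  have h5 : Nat.card (zpowers v) ∣ Nat.card (h.ker x) := card_dvd_of_le h3.le
  have h6 : Nat.card (h.ker x) ∣ 9 := by rw [← hcard]; exact card_subgroup_dvd_card _
  have h7 : Nat.card (zpowers v) ≠ 1 := by
    rw [Nat.card_zpowers]
    intro h8
    exact hv (orderOf_eq_one_iff.1 h8)
  have h8 : Nat.card (zpowers v) ∣ 9 := h5.trans h6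
  have hdiv : ∀ n, n ∣ 9 → n = 1 ∨ n = 3 ∨ n = 9 := by
    intro n hn
    have h9 : n ∈ Nat.divisors 9 := Nat.mem_divisors.2 ⟨hn, by norm_num⟩
    have h10 : Nat.divisors 9 = {1, 3, 9} := by decide
    rw [h10] at h9
    simpa using h9
  have h9 : h.ker x = ⊤ := by
    apply eq_top_of_card_eq
    rw [hcard]
    rcases hdiv _ h8 with e | e | e <;> rcases hdiv _ h6 with e' | e' | e' <;> omega
  have h10 : y ∈ h.ker x := by rw [h9]; exact mem_top y
  exact h10

/-- For order 9, elements of order prime to 3 act freely. -/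
theorem free_nine (hcard : Nat.card V = 9) (h : IsAlt A ω) (hne : ∃ x y, ω x y ≠ 1)
    (hA : ¬ 3 ∣ Nat.card A) {a : MulAut V} (ha : a ∈ A) {v : V} (hv : v ≠ 1) (hav : a v = v) :
    a = 1 := by
  classical
  obtain ⟨y₀, hy₀⟩ := nine_ker_ne_top hcard h hne hv
  have hdiv : ∀ n, n ∣ 9 → n = 1 ∨ n = 3 ∨ n = 9 := by
    intro n hn
    have h9 : n ∈ Nat.divisors 9 := Nat.mem_divisors.2 ⟨hn, by norm_num⟩
    have h10 : Nat.divisors 9 = {1, 3, 9} := by decide
    rw [h10] at h9
    simpa using h9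
  have hK : h.ker v = zpowers v := by
    have h1 : zpowers v ≤ h.ker v := zpowers_le.2 (h.self v)
    have h2 : Nat.card (h.ker v) ∣ 9 := by rw [← hcard]; exact card_subgroup_dvd_card _
    have h3 : Nat.card (h.ker v) ≠ 9 := by
      intro h4
      have h5 : h.ker v = ⊤ := eq_top_of_card_eq _ (by rw [h4, hcard])
      have h6 : y₀ ∈ h.ker v := by rw [h5]; exact mem_top _
      exact hy₀ h6
    have h7 : Nat.card (zpowers v) ≠ 1 := by
      rw [Nat.card_zpowers]
      intro h8
      exact hv (orderOf_eq_one_iff.1 h8)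
    have h8 : Nat.card (zpowers v) ∣ Nat.card (h.ker v) := card_dvd_of_le h1
    refine (eq_of_le_of_card_ge h1 ?_).symm
    have h9 : Nat.card (zpowers v) ∣ 9 := h8.trans h2
    rcases hdiv _ h2 with e | e | e
    · rw [e]; exact Nat.card_pos
    · rw [e] at h8 ⊢
      rcases (Nat.dvd_prime (by norm_num)).1 h8 with e' | e'
      · exact absurd e' h7
      · rw [e']
    · exact absurd e h3
  apply MulEquiv.ext
  intro w
  set c := a w * w⁻¹ with hc
  have h1 : c ∈ h.ker v := by
    rw [h.mem_ker, hc, h.mul_right, h.inv_right]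
    nth_rewrite 1 [← hav]
    rw [h.inv a ha, mul_inv_cancel]
  have h2 : a c = c := by
    rw [hK] at h1
    obtain ⟨k, hk⟩ := mem_zpowers_iff.1 h1
    rw [← hk, map_zpow, hav]
  have h3 : ∀ n : ℕ, (a ^ n) w = c ^ n * w := by
    intro n
    induction n with
    | zero => simp
    | succ n ih =>
      rw [pow_succ', MulAut.mul_apply, ih, map_mul, map_pow, h2, pow_succ, mul_assoc, hc,
        inv_mul_cancel_right]
  have h4 : a ^ Nat.card A = 1 := by
    have h5 : (⟨a, ha⟩ : A) ^ Nat.card A = 1 := pow_card_eq_one'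
    exact congrArg Subtype.val h5
  have h5 : c ^ Nat.card A = 1 := by
    have h6 := h3 (Nat.card A)
    rw [h4] at h6
    exact (right_eq_mul.1 h6)
  have h6 : c ^ 9 = 1 := by rw [← hcard]; exact pow_card_eq_one'
  have h7 : Nat.Coprime (Nat.card A) 9 := by
    have h8 : Nat.Coprime (Nat.card A) 3 :=
      ((Nat.Prime.coprime_iff_not_dvd (by norm_num)).2 hA).symm
    exact Nat.Coprime.pow_right 2 h8
  have h8 : c = 1 := by
    have h9 : orderOf c ∣ 1 := by
      rw [← Nat.Coprime.gcd_eq_one h7]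
      exact Nat.dvd_gcd (orderOf_dvd_of_pow_eq_one h5) (orderOf_dvd_of_pow_eq_one h6)
    exact orderOf_eq_one_iff.1 (Nat.dvd_one.1 h9)
  exact mul_inv_eq_one.1 h8

theorem card_nine (hcard : Nat.card V = 9) (h : IsAlt A ω) (hne : ∃ x y, ω x y ≠ 1)
    (hA : ¬ 3 ∣ Nat.card A) :
    Nat.card A = 1 ∨ Nat.card A = 2 ∨ Nat.card A = 4 ∨ Nat.card A = 8 := by
  classical
  have : Fintype V := Fintype.ofFinite V
  have hfinA : Finite A := Finite.of_finite_univ (Set.toFinite _)
  obtain ⟨v, hv⟩ : ∃ v : V, v ≠ 1 := by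
    by_contra hcon
    push Not at hcon
    have h1 : Subsingleton V := ⟨fun a b => (hcon a).trans (hcon b).symm⟩
    have h2 := Nat.card_of_subsingleton (1 : V)
    omega
  have hpr : ∀ {r : ℕ}, r.Prime → r ∣ Nat.card A → r = 2 := by
    intro r hr hrA
    have : Fact r.Prime := ⟨hr⟩
    obtain ⟨⟨k, hkA⟩, hk⟩ := exists_prime_orderOf_dvd_card' (G := A) r hrA
    rw [Subgroup.orderOf_mk] at hk
    have hKp : IsPGroup r (zpowers k) := IsPGroup.of_card (n := 1) (by rw [Nat.card_zpowers, hk, pow_one])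
    have h1 := fx_univ (zpowers k) hKp
    have h2 : Fx (zpowers k) = ⊥ := by
      rw [eq_bot_iff]
      intro x hx
      rw [mem_bot]
      by_contra hx1
      have h3 := free_nine hcard h hne hA hkA hx1 (hx k (mem_zpowers k))
      rw [h3, orderOf_one] at hk
      exact hr.ne_one hk.symm
    rw [h2, card_bot, hcard] at h1
    have h3 : r ∣ 8 := by
      have h4 := (Nat.modEq_iff_dvd' (by norm_num : 1 ≤ 9)).1 h1.symm
      simpa using h4
    have h4 : r ∣ 2 ^ 3 := by simpa using h3
    exact (Nat.prime_dvd_prime_iff_eq hr Nat.prime_two).1 (hr.dvd_of_dvd_pow h4)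
  have h1 := Nat.eq_prime_pow_of_unique_prime_dvd (n := Nat.card A) (p := 2) Nat.card_pos.ne' hpr
  have h2 : Nat.card A ≤ 8 := by
    have h3 := orb A v
    have h4 : St A v = ⊥ := by
      rw [eq_bot_iff]
      intro s hs
      rw [mem_bot]
      exact free_nine hcard h hne hA hs.1 hv hs.2
    rw [h4, card_bot, mul_one] at h3
    rw [← h3]
    have h5 : Nat.card {v' : V // ∃ a ∈ A, a v = v'} =
        (Finset.univ.filter fun v' : V => ∃ a ∈ A, a v = v').card := by
      rw [Nat.card_eq_fintype_card, Fintype.card_subtype]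
    have h6 := Finset.card_le_univ
      (insert 1 (Finset.univ.filter fun v' : V => ∃ a ∈ A, a v = v'))
    rw [Finset.card_insert_of_notMem, ← h5, ← Nat.card_eq_fintype_card, hcard] at h6
    · omega
    · simp only [Finset.mem_filter, Finset.mem_univ, true_and]
      rintro ⟨a, ha, h7⟩
      exact hv ((MulEquiv.map_eq_one_iff a).1 h7)
  generalize (Nat.card A).primeFactorsList.length = k at h1
  rw [h1] at h2 ⊢
  have hk : k ≤ 3 := by
    by_contra hcon
    push Not at hcon
    have h3 : 2 ^ 4 ≤ 2 ^ k := Nat.pow_le_pow_right (by norm_num) hcon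
    omega
  interval_cases k <;> norm_num

end Cfsg.Agent.H623.CommForm
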