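import Mathlib
import Cfsg.Agent.H623.CommForm

/-!
# The commutator form of a central quotient

`U ≤ Z(H)`, `P` an abelian subgroup of `H ⧸ U` whose preimage is not abelian, `S` a subgroup of
`H ⧸ U` normalising `P`: the commutator form `P → P → Z(H)` is invariant under `S`.

* `relIndex_sixteen`: `U` cyclic, `P` elementary abelian of order 16, `|S : C_S(P)|` odd: it is
  1, 3, 5 or 9;
* `relIndex_eight`: the same for order 8: it is 1 or 3;
* `mem_centralizer_nine`, `relIndex_nine`: `|P| = 9` and `3 ∤ |S : C_S(P)|`: `S` acts freely on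
  `P`, `|S : C_S(P)|` is 1, 2, 4 or 8.
-/

set_option autoImplicit false
set_option linter.unusedSectionVars false

namespace Cfsg.Agent.H623.CommForm

open Subgroup
open scoped commutatorElement IsMulCommutative

variable {H : Type*} [Group H] {U : Subgroup H} [U.Normal]

theorem comm_mul_left {a b c : H} (h : ⁅b, c⁆ ∈ center H) : ⁅a * b, c⁆ = ⁅a, c⁆ * ⁅b, c⁆ := by
  have h1 := mem_center_iff.1 h
  calc ⁅a * b, c⁆ = a * ⁅b, c⁆ * c * a⁻¹ * c⁻¹ := by simp only [commutatorElement_def]; group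
    _ = ⁅b, c⁆ * ⁅a, c⁆ := by rw [h1 a]; simp only [commutatorElement_def]; group
    _ = _ := by rw [h1]

theorem comm_mul_right {a b c : H} (h : ⁅a, c⁆ ∈ center H) : ⁅a, b * c⁆ = ⁅a, b⁆ * ⁅a, c⁆ := by
  have h1 := mem_center_iff.1 h
  calc ⁅a, b * c⁆ = ⁅a, b⁆ * (b * ⁅a, c⁆) * b⁻¹ := by simp only [commutatorElement_def]; group
    _ = _ := by rw [h1 b]; group

theorem comm_central_left {a b : H} (h : a ∈ center H) : ⁅a, b⁆ = 1 := by
  rw [commutatorElement_eq_one_iff_mul_comm]
  exact (mem_center_iff.1 h b).symm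

theorem comm_central_right {a b : H} (h : b ∈ center H) : ⁅a, b⁆ = 1 := by
  rw [commutatorElement_eq_one_iff_mul_comm]
  exact (mem_center_iff.1 h a)

/-- The commutator only depends on the classes modulo a central subgroup. -/
theorem comm_congr (hU : U ≤ center H) {d d' e e' : H} (h : (d : H ⧸ U) = d')
    (h' : (e : H ⧸ U) = e') : ⁅d, e⁆ = ⁅d', e'⁆ := by
  have h1 : d⁻¹ * d' ∈ center H := hU (QuotientGroup.eq.1 h)
  have h2 : e⁻¹ * e' ∈ center H := hU (QuotientGroup.eq.1 h')
  have h3 : ⁅d * (d⁻¹ * d'), e * (e⁻¹ * e')⁆ = ⁅d, e⁆ := by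
    rw [comm_mul_left (by rw [comm_central_left h1]; exact one_mem _), comm_central_left h1,
      mul_one, comm_mul_right (by rw [comm_central_right h2]; exact one_mem _),
      comm_central_right h2, mul_one]
  rw [← h3]
  congr 1
  · group
  · group

open Classical in
/-- The commutator form. -/
noncomputable def cform (P : Subgroup (H ⧸ U)) (v w : P) : center H :=
  if h : ⁅(v : H ⧸ U).out, (w : H ⧸ U).out⁆ ∈ center H then
    ⟨⁅(v : H ⧸ U).out, (w : H ⧸ U).out⁆, h⟩ else 1

section form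

variable (hU : U ≤ center H) {P : Subgroup (H ⧸ U)} (hab : ∀ x ∈ P, ∀ y ∈ P, x * y = y * x)

include hU hab

theorem comm_mem {d e : H} (hd : (d : H ⧸ U) ∈ P) (he : (e : H ⧸ U) ∈ P) : ⁅d, e⁆ ∈ U := by
  rw [← QuotientGroup.eq_one_iff]
  change QuotientGroup.mk' U ⁅d, e⁆ = 1
  rw [map_commutatorElement, commutatorElement_eq_one_iff_mul_comm]
  exact hab _ hd _ he

theorem coe_cform {v w : P} {d e : H} (hd : (d : H ⧸ U) = v) (he : (e : H ⧸ U) = w) :
    ((cform P v w : center H) : H) = ⁅d, e⁆ := by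
  have h1 : ⁅(v : H ⧸ U).out, (w : H ⧸ U).out⁆ = ⁅d, e⁆ :=
    comm_congr hU (by rw [QuotientGroup.out_eq', hd]) (by rw [QuotientGroup.out_eq', he])
  have h2 : ⁅d, e⁆ ∈ center H := hU (comm_mem hU hab (by rw [hd]; exact v.2) (by rw [he]; exact w.2))
  rw [cform, dif_pos (by rw [h1]; exact h2)]
  exact h1

theorem exists_rep (v : P) : ∃ d : H, (d : H ⧸ U) = v := ⟨(v : H ⧸ U).out, QuotientGroup.out_eq' _⟩

theorem cform_mem (v w : P) : ((cform P v w : center H) : H) ∈ U := by
  obtain ⟨d, hd⟩ := exists_rep hU hab v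
  obtain ⟨e, he⟩ := exists_rep hU hab w
  rw [coe_cform hU hab hd he]
  exact comm_mem hU hab (by rw [hd]; exact v.2) (by rw [he]; exact w.2)

theorem cform_mul_left (x y z : P) : cform P (x * y) z = cform P x z * cform P y z := by
  obtain ⟨d, hd⟩ := exists_rep hU hab x
  obtain ⟨e, he⟩ := exists_rep hU hab y
  obtain ⟨f, hf⟩ := exists_rep hU hab z
  apply Subtype.ext
  rw [Subgroup.coe_mul, coe_cform hU hab (d := d * e) (e := f) (by rw [QuotientGroup.mk_mul, hd, he]; rfl) hf,
    coe_cform hU hab hd hf, coe_cform hU hab he hf]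
  exact comm_mul_left (hU (comm_mem hU hab (by rw [he]; exact y.2) (by rw [hf]; exact z.2)))

theorem cform_mul_right (x y z : P) : cform P x (y * z) = cform P x y * cform P x z := by
  obtain ⟨d, hd⟩ := exists_rep hU hab x
  obtain ⟨e, he⟩ := exists_rep hU hab y
  obtain ⟨f, hf⟩ := exists_rep hU hab z
  apply Subtype.ext
  rw [Subgroup.coe_mul, coe_cform hU hab (d := d) (e := e * f) hd (by rw [QuotientGroup.mk_mul, he, hf]; rfl),
    coe_cform hU hab hd he, coe_cform hU hab hd hf]
  exact comm_mul_right (hU (comm_mem hU hab (by rw [hd]; exact x.2) (by rw [hf]; exact z.2)))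

theorem cform_self (x : P) : cform P x x = 1 := by
  obtain ⟨d, hd⟩ := exists_rep hU hab x
  apply Subtype.ext
  rw [coe_cform hU hab hd hd, commutatorElement_self]
  rfl

theorem cform_conj {s : H ⧸ U} {x y x' y' : P} (hx : (x' : H ⧸ U) = s * x * s⁻¹)
    (hy : (y' : H ⧸ U) = s * y * s⁻¹) : cform P x' y' = cform P x y := by
  obtain ⟨d, hd⟩ := exists_rep hU hab x
  obtain ⟨e, he⟩ := exists_rep hU hab y
  obtain ⟨f, rfl⟩ := QuotientGroup.mk_surjective s
  have h1 : ⁅d, e⁆ ∈ center H := hU (comm_mem hU hab (by rw [hd]; exact x.2) (by rw [he]; exact y.2))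
  apply Subtype.ext
  rw [coe_cform hU hab (d := f * d * f⁻¹) (e := f * e * f⁻¹)
    (by rw [QuotientGroup.mk_mul, QuotientGroup.mk_mul, QuotientGroup.mk_inv, hd, hx])
    (by rw [QuotientGroup.mk_mul, QuotientGroup.mk_mul, QuotientGroup.mk_inv, he, hy]),
    coe_cform hU hab hd he]
  have h2 := mem_center_iff.1 h1 f
  calc ⁅f * d * f⁻¹, f * e * f⁻¹⁆ = f * ⁅d, e⁆ * f⁻¹ := by simp only [commutatorElement_def]; group
    _ = ⁅d, e⁆ := by rw [h2]; group

/-- The group of automorphisms of `P` induced by `S`. -/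
noncomputable def indAut (P : Subgroup (H ⧸ U)) (S : Subgroup (H ⧸ U)) : Subgroup (MulAut P) :=
  (S.subgroupOf (normalizer (P : Set (H ⧸ U)))).map (normalizerMonoidHom P)

omit hU hab in
theorem card_indAut {S : Subgroup (H ⧸ U)} (hS : S ≤ normalizer (P : Set (H ⧸ U))) :
    Nat.card (indAut P S) = (centralizer (P : Set (H ⧸ U))).relIndex S := by
  rw [indAut, ← relIndex_ker, normalizerMonoidHom_ker, relIndex_subgroupOf hS]

theorem isAlt (S : Subgroup (H ⧸ U)) :
    letI : CommGroup P := { (inferInstance : Group P) with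
      mul_comm := fun x y => Subtype.ext (hab x x.2 y y.2) }
    IsAlt (indAut P S) (cform P) := by
  letI : CommGroup P := { (inferInstance : Group P) with
      mul_comm := fun x y => Subtype.ext (hab x x.2 y y.2) }
  refine ⟨cform_mul_left hU hab, cform_mul_right hU hab, cform_self hU hab, ?_⟩
  rintro _ ⟨t, -, rfl⟩ x y
  exact cform_conj hU hab (s := (t : H ⧸ U)) rfl rfl

theorem cform_ne (hna : ¬ ∀ x y : H, (x : H ⧸ U) ∈ P → (y : H ⧸ U) ∈ P → x * y = y * x) :
    ∃ x y, cform P x y ≠ 1 := by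
  by_contra hcon
  push Not at hcon
  apply hna
  intro x y hx hy
  have h1 := hcon ⟨_, hx⟩ ⟨_, hy⟩
  have h2 := coe_cform hU hab (v := ⟨_, hx⟩) (w := ⟨_, hy⟩) (d := x) (e := y) rfl rfl
  rw [h1] at h2
  exact commutatorElement_eq_one_iff_mul_comm.1 h2.symm

end form

theorem exists_values [Finite H] (hU : U ≤ center H) (hcyc : IsCyclic U) {P : Subgroup (H ⧸ U)}
    (hel : ∀ x ∈ P, x * x = 1) :
    ∃ z : center H, ∀ x y, cform P x y = 1 ∨ cform P x y = z := by
  classical
  have hab : ∀ x ∈ P, ∀ y ∈ P, x * y = y * x := by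
    intro x hx y hy
    have h1 := hel _ (P.mul_mem hx hy)
    have h2 := hel x hx
    have h3 := hel y hy
    calc x * y = x * (x * y * (x * y)) * y := by rw [h1, mul_one]
      _ = (x * x) * (y * x) * (y * y) := by group
      _ = y * x := by rw [h2, h3, one_mul, mul_one]
  have hsq : ∀ x y : P, cform P x y * cform P x y = 1 := by
    intro x y
    rw [← cform_mul_right hU hab, show y * y = 1 from Subtype.ext (hel y y.2)]
    have h1 := cform_mul_right hU hab x 1 1
    rw [mul_one] at h1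
    exact (left_eq_mul.1 h1)
  have huniq : ∀ a b : U, a * a = 1 → b * b = 1 → a ≠ 1 → b ≠ 1 → a = b := by
    intro a b ha hb ha1 hb1
    by_contra hne
    have := Fintype.ofFinite U
    have h1 := hcyc.card_pow_eq_one_le (n := 2) (by norm_num)
    have h2 : ({1, a, b} : Finset U).card = 3 := by
      rw [Finset.card_eq_three]
      exact ⟨1, a, b, fun h => ha1 h.symm, fun h => hb1 h.symm, hne, rfl⟩
    have h3 : ({1, a, b} : Finset U) ⊆ Finset.univ.filter fun a : U => a ^ 2 = 1 := by
      intro v hv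
      simp only [Finset.mem_insert, Finset.mem_singleton, Finset.mem_filter, Finset.mem_univ,
        true_and] at hv ⊢
      rcases hv with rfl | rfl | rfl
      · exact one_pow 2
      · rw [pow_two]; exact ha
      · rw [pow_two]; exact hb
    have h4 := Finset.card_le_card h3
    omega
  by_cases h0 : ∀ x y, cform P x y = 1
  · exact ⟨1, fun x y => Or.inl (h0 x y)⟩
  push Not at h0
  obtain ⟨x₀, y₀, h0⟩ := h0
  refine ⟨cform P x₀ y₀, fun x y => ?_⟩
  by_cases h1 : cform P x y = 1
  · exact Or.inl h1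
  right
  have h2 := huniq ⟨_, cform_mem hU hab x y⟩ ⟨_, cform_mem hU hab x₀ y₀⟩
    (Subtype.ext (congrArg (fun z : center H => (z : H)) (hsq x y)))
    (Subtype.ext (congrArg (fun z : center H => (z : H)) (hsq x₀ y₀)))
    (fun h => h1 (Subtype.ext (congrArg (fun z : U => (z : H)) h)))
    (fun h => h0 (Subtype.ext (congrArg (fun z : U => (z : H)) h)))
  exact Subtype.ext (congrArg (fun z : U => (z : H)) h2)

theorem comm_of_sq {P : Subgroup (H ⧸ U)} (hel : ∀ x ∈ P, x * x = 1) :
    ∀ x ∈ P, ∀ y ∈ P, x * y = y * x := by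
  intro x hx y hy
  have h1 := hel _ (P.mul_mem hx hy)
  have h2 := hel x hx
  have h3 := hel y hy
  calc x * y = x * (x * y * (x * y)) * y := by rw [h1, mul_one]
    _ = (x * x) * (y * x) * (y * y) := by group
    _ = y * x := by rw [h2, h3, one_mul, mul_one]

section main

variable [Finite H] (hU : U ≤ center H) {P : Subgroup (H ⧸ U)} {S : Subgroup (H ⧸ U)}
  (hna : ¬ ∀ x y : H, (x : H ⧸ U) ∈ P → (y : H ⧸ U) ∈ P → x * y = y * x)
  (hS : S ≤ normalizer (P : Set (H ⧸ U)))

include hU hna hS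

/-- `P` elementary abelian of order 16. -/
theorem relIndex_sixteen (hcyc : IsCyclic U) (hcard : Nat.card P = 16) (hel : ∀ x ∈ P, x * x = 1)
    (hodd : ¬ 2 ∣ (centralizer (P : Set (H ⧸ U))).relIndex S) :
    (centralizer (P : Set (H ⧸ U))).relIndex S = 1 ∨
      (centralizer (P : Set (H ⧸ U))).relIndex S = 3 ∨
      (centralizer (P : Set (H ⧸ U))).relIndex S = 5 ∨
      (centralizer (P : Set (H ⧸ U))).relIndex S = 9 := by
  have hab := comm_of_sq hel
  letI : CommGroup P := { (inferInstance : Group P) with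
      mul_comm := fun x y => Subtype.ext (hab x x.2 y y.2) }
  obtain ⟨z, hz⟩ := exists_values hU hcyc hel
  rw [← card_indAut hS] at hodd ⊢
  exact card_sixteen hcard (fun v => Subtype.ext (hel v v.2))
    (Nat.not_even_iff_odd.1 fun h => hodd h.two_dvd) (isAlt hU hab S) hz (cform_ne hU hab hna)

/-- `P` elementary abelian of order 8. -/
theorem relIndex_eight (hcyc : IsCyclic U) (hcard : Nat.card P = 8) (hel : ∀ x ∈ P, x * x = 1)
    (hodd : ¬ 2 ∣ (centralizer (P : Set (H ⧸ U))).relIndex S) :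
    (centralizer (P : Set (H ⧸ U))).relIndex S = 1 ∨
      (centralizer (P : Set (H ⧸ U))).relIndex S = 3 := by
  have hab := comm_of_sq hel
  letI : CommGroup P := { (inferInstance : Group P) with
      mul_comm := fun x y => Subtype.ext (hab x x.2 y y.2) }
  obtain ⟨z, hz⟩ := exists_values hU hcyc hel
  rw [← card_indAut hS] at hodd ⊢
  exact card_eight hcard (fun v => Subtype.ext (hel v v.2))
    (Nat.not_even_iff_odd.1 fun h => hodd h.two_dvd) (isAlt hU hab S) hz (cform_ne hU hab hna)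

omit hU hna hS in
theorem comm_of_nine (hcard : Nat.card P = 9) : ∀ x ∈ P, ∀ y ∈ P, x * y = y * x := by
  have : Fact (Nat.Prime 3) := ⟨by norm_num⟩
  have h2 : Nat.card P = 3 ^ 2 := by rw [hcard]; norm_num
  intro x hx y hy
  exact congrArg Subtype.val
    ((IsPGroup.isMulCommutative_of_card_eq_prime_sq h2).is_comm.comm ⟨x, hx⟩ ⟨y, hy⟩)

/-- `|P| = 9`: the action is free. -/
theorem mem_centralizer_nine (hcard : Nat.card P = 9)
    (h3 : ¬ 3 ∣ (centralizer (P : Set (H ⧸ U))).relIndex S) {t : H ⧸ U} (ht : t ∈ S) {v : H ⧸ U}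
    (hv : v ∈ P) (hv1 : v ≠ 1) (htv : t * v * t⁻¹ = v) : t ∈ centralizer (P : Set (H ⧸ U)) := by
  have hab := comm_of_nine hcard
  letI : CommGroup P := { (inferInstance : Group P) with
      mul_comm := fun x y => Subtype.ext (hab x x.2 y y.2) }
  rw [← card_indAut hS] at h3
  have h1 : normalizerMonoidHom P ⟨t, hS ht⟩ = 1 := by
    refine free_nine hcard (isAlt hU hab S) (cform_ne hU hab hna) h3
      (a := normalizerMonoidHom P ⟨t, hS ht⟩) ⟨⟨t, hS ht⟩, mem_subgroupOf.2 ht, rfl⟩
      (v := ⟨v, hv⟩) (fun h => hv1 (congrArg Subtype.val h)) (Subtype.ext htv)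
  rw [mem_centralizer_iff]
  intro x hx
  have h2 := congrArg (fun f : MulAut P => ((f ⟨x, hx⟩ : P) : H ⧸ U)) h1
  have h4 : t * x * t⁻¹ = x := h2
  calc x * t = t * x * t⁻¹ * t := by rw [h4]
    _ = t * x := by group

/-- `|P| = 9`: the order. -/
theorem relIndex_nine (hcard : Nat.card P = 9)
    (h3 : ¬ 3 ∣ (centralizer (P : Set (H ⧸ U))).relIndex S) :
    (centralizer (P : Set (H ⧸ U))).relIndex S = 1 ∨
      (centralizer (P : Set (H ⧸ U))).relIndex S = 2 ∨
      (centralizer (P : Set (H ⧸ U))).relIndex S = 4 ∨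
      (centralizer (P : Set (H ⧸ U))).relIndex S = 8 := by
  have hab := comm_of_nine hcard
  letI : CommGroup P := { (inferInstance : Group P) with
      mul_comm := fun x y => Subtype.ext (hab x x.2 y y.2) }
  rw [← card_indAut hS] at h3 ⊢
  exact card_nine hcard (isAlt hU hab S) (cform_ne hU hab hna) h3

end main

end Cfsg.Agent.H623.CommForm
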