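import Mathlib
import Cfsg.Agent.H623.CommFormQ
import Cfsg.Agent.H645.TraceForm

/-!
# The commutator form: inertial quotients of blocks of central quotients

`U ≤ Z(H)`, `a` a maximal pair of a block of `H ⧸ U`, with `a.1` abelian, and `a.1` is the image of
a nonabelian subgroup of `H`.
-/

set_option autoImplicit false
set_option linter.unusedSectionVars false

open Cfsg

namespace Cfsg.Agent.H623.CommForm

open Cfsg.Agent.H651 Cfsg.Agent.H649 Cfsg.Agent.Characters
open Cfsg.Agent.H645.FusCount Cfsg.Agent.H645.TraceForm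

universe u

variable {H : Type u} [Group H] {U : Subgroup H} [U.Normal]

/-- A nonabelian subgroup in the preimage. -/
theorem not_comm_of_map {D : Subgroup H} (hna : ¬ ∀ x ∈ D, ∀ y ∈ D, x * y = y * x)
    {P : Subgroup (H ⧸ U)} (hDP : D.map (QuotientGroup.mk' U) ≤ P) :
    ¬ ∀ x y : H, (x : H ⧸ U) ∈ P → (y : H ⧸ U) ∈ P → x * y = y * x := fun h =>
  hna fun x hx y hy => h x y (hDP (Subgroup.mem_map_of_mem _ hx)) (hDP (Subgroup.mem_map_of_mem _ hy))

variable [Finite H] [Fintype (H ⧸ U)] {M : Ideal AlgInt} [M.IsPrime]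
  {B : Set (IrrCharacter (H ⧸ U))} {a : BrauerPairIdx (H ⧸ U)}
  (hU : U ≤ Subgroup.center H) {D : Subgroup H} (hna : ¬ ∀ x ∈ D, ∀ y ∈ D, x * y = y * x)
  (hDP : D.map (QuotientGroup.mk' U) ≤ a.1)

include hU hna hDP

/-- The inertial quotient of a block with elementary abelian defect group of order 16, which is
the image of a nonabelian group modulo a cyclic central subgroup. -/
theorem stab_sixteen (hcyc : IsCyclic U) (hM : IsPModular 2 M)
    (hmax : IsMaximalBrauerPair 2 M B a.1 a.2) (hcard : Nat.card a.1 = 16)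
    (hel : ∀ x ∈ a.1, x * x = 1) :
    (Subgroup.centralizer (a.1 : Set (H ⧸ U))).relIndex (stab a) = 1 ∨
      (Subgroup.centralizer (a.1 : Set (H ⧸ U))).relIndex (stab a) = 3 ∨
      (Subgroup.centralizer (a.1 : Set (H ⧸ U))).relIndex (stab a) = 5 ∨
      (Subgroup.centralizer (a.1 : Set (H ⧸ U))).relIndex (stab a) = 9 := by
  have hab := comm_of_sq hel
  exact relIndex_sixteen hU (not_comm_of_map hna hDP) (stab_le_normalizer hM hmax hab) hcyc hcard
    hel (not_dvd_relIndex_stab hM hmax hab)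

/-- The same for order 8. -/
theorem stab_eight (hcyc : IsCyclic U) (hM : IsPModular 2 M)
    (hmax : IsMaximalBrauerPair 2 M B a.1 a.2) (hcard : Nat.card a.1 = 8)
    (hel : ∀ x ∈ a.1, x * x = 1) :
    (Subgroup.centralizer (a.1 : Set (H ⧸ U))).relIndex (stab a) = 1 ∨
      (Subgroup.centralizer (a.1 : Set (H ⧸ U))).relIndex (stab a) = 3 := by
  have hab := comm_of_sq hel
  exact relIndex_eight hU (not_comm_of_map hna hDP) (stab_le_normalizer hM hmax hab) hcyc hcard
    hel (not_dvd_relIndex_stab hM hmax hab)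

/-- `|P| = 9`: the inertial quotient acts freely. -/
theorem stab_nine_free (hM : IsPModular 3 M)
    (hmax : IsMaximalBrauerPair 3 M B a.1 a.2) (hcard : Nat.card a.1 = 9)
    {t : H ⧸ U} (ht : t ∈ stab a) {v : H ⧸ U} (hv : v ∈ a.1) (hv1 : v ≠ 1)
    (htv : t * v * t⁻¹ = v) : t ∈ Subgroup.centralizer (a.1 : Set (H ⧸ U)) := by
  have hab := comm_of_nine hcard
  exact mem_centralizer_nine hU (not_comm_of_map hna hDP) (stab_le_normalizer hM hmax hab) hcard
    (not_dvd_relIndex_stab hM hmax hab) ht hv hv1 htv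

/-- `|P| = 9`: the order of the inertial quotient. -/
theorem stab_nine (hM : IsPModular 3 M)
    (hmax : IsMaximalBrauerPair 3 M B a.1 a.2) (hcard : Nat.card a.1 = 9) :
    (Subgroup.centralizer (a.1 : Set (H ⧸ U))).relIndex (stab a) = 1 ∨
      (Subgroup.centralizer (a.1 : Set (H ⧸ U))).relIndex (stab a) = 2 ∨
      (Subgroup.centralizer (a.1 : Set (H ⧸ U))).relIndex (stab a) = 4 ∨
      (Subgroup.centralizer (a.1 : Set (H ⧸ U))).relIndex (stab a) = 8 := by
  have hab := comm_of_nine hcard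
  exact relIndex_nine hU (not_comm_of_map hna hDP) (stab_le_normalizer hM hmax hab) hcard
    (not_dvd_relIndex_stab hM hmax hab)

/-- `|P| = 9`: the group `P` has exponent 3. -/
theorem pow_three_of_nine {P : Subgroup (H ⧸ U)} (hDP : D.map (QuotientGroup.mk' U) ≤ P)
    (hcard : Nat.card P = 9) : ∀ x ∈ P, x ^ 3 = 1 := by
  intro x hx
  have hdiv : orderOf x ∣ 9 := by
    rw [← hcard, ← Subgroup.orderOf_mk x hx]
    exact orderOf_dvd_natCard _
  have h9 : orderOf x ≠ 9 := by
    intro h9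
    apply hna
    -- `P = ⟨x⟩`
    have hP : Subgroup.zpowers x = P :=
      Subgroup.eq_of_le_of_card_ge (Subgroup.zpowers_le.2 hx) (by rw [Nat.card_zpowers, h9, hcard])
    obtain ⟨g, rfl⟩ := QuotientGroup.mk_surjective x
    have key : ∀ y ∈ D, ∃ k : ℤ, ∃ u ∈ U, y = g ^ k * u := by
      intro y hy
      have h1 : (y : H ⧸ U) ∈ Subgroup.zpowers (g : H ⧸ U) := by
        rw [hP]
        exact hDP (Subgroup.mem_map_of_mem _ hy)
      obtain ⟨k, hk⟩ := Subgroup.mem_zpowers_iff.1 h1
      refine ⟨k, (g ^ k)⁻¹ * y, ?_, by group⟩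
      rw [← QuotientGroup.eq, QuotientGroup.mk_zpow]
      exact hk
    intro y hy z hz
    obtain ⟨k, u, hu, rfl⟩ := key y hy
    obtain ⟨l, w, hw, rfl⟩ := key z hz
    have h1 := Subgroup.mem_center_iff.1 (hU hu)
    have h2 := Subgroup.mem_center_iff.1 (hU hw)
    calc g ^ k * u * (g ^ l * w) = g ^ k * (u * g ^ l) * w := by group
      _ = g ^ k * g ^ l * (u * w) := by rw [← h1 (g ^ l)]; group
      _ = g ^ l * g ^ k * (w * u) := by rw [← zpow_add, add_comm, zpow_add, h2 u]
      _ = g ^ l * (g ^ k * w) * u := by group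
      _ = g ^ l * w * (g ^ k * u) := by rw [h2 (g ^ k)]; group
  have h3 : orderOf x ∣ 3 := by
    have h10 : orderOf x ∈ Nat.divisors 9 := Nat.mem_divisors.2 ⟨hdiv, by norm_num⟩
    have h11 : Nat.divisors 9 = {1, 3, 9} := by decide
    rw [h11] at h10
    simp only [Finset.mem_insert, Finset.mem_singleton] at h10
    rcases h10 with h | h | h
    · rw [h]; norm_num
    · rw [h]
    · exact absurd h h9
  exact orderOf_dvd_iff_pow_eq_one.1 h3

end Cfsg.Agent.H623.CommForm
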