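import Cfsg.Agent.H217.Odm.Eng
import Cfsg.Agent.H257.El.Eng
import Cfsg.Agent.H210.On7.Primes
import Cfsg.Agent.NotCT.Orders

/-!
# TEAM ODDM (S4785), the O'Nan group (helper623)

The elements of order 19 and 11 are self-centralizing and real (`|N(⟨x⟩)| = 19 * 6`, `11 * 10`).
-/

set_option autoImplicit false

namespace Cfsg.Agent.H623.OdmRowON

open Subgroup
open Cfsg.Agent.H453.OddM
open Cfsg.Agent.H217.Odm

universe u

theorem card_cent_congr {G H : Type*} [Group G] [Group H] (e : G ≃* H) (x : G) :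
    Nat.card (centralizer ({x} : Set G)) = Nat.card (centralizer ({e x} : Set H)) := by
  refine Nat.card_congr ⟨fun a => ⟨e a, ?_⟩, fun a => ⟨e.symm a, ?_⟩, fun a => ?_, fun a => ?_⟩
  · rw [mem_centralizer_singleton_iff, ← map_mul, mem_centralizer_singleton_iff.1 a.2, map_mul]
  · rw [mem_centralizer_singleton_iff]
    apply e.injective
    rw [map_mul, map_mul, e.apply_symm_apply]
    exact mem_centralizer_singleton_iff.1 a.2
  · exact Subtype.ext (e.symm_apply_apply _)
  · exact Subtype.ext (e.apply_symm_apply _)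

/-- **row `O'N`** -/
theorem row (tab : Cfsg.Agent.OrdDiv.OrderTable.{u}) (known : Cfsg.Agent.H257.El.Known.{u}) {T : Type u} [Group T]
    (h : Cfsg.Spor.IsoON T) : Cfsg.Agent.H453.OddM.Row T := by
  have hc := NotCT.Orders.on h
  have : Finite T := Nat.finite_of_card_ne_zero (by rw [hc]; norm_num)
  obtain ⟨e⟩ := h
  have c19 : ∀ x : T, orderOf x = 19 → Nat.card (centralizer ({x} : Set T)) = 19 := fun x hx => by
    rw [card_cent_congr e, H210.On7.card_cent_nineteen (by rw [MulEquiv.orderOf_eq, hx])]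
  have c11 : ∀ x : T, orderOf x = 11 → Nat.card (centralizer ({x} : Set T)) = 11 := fun x hx => by
    rw [card_cent_congr e, H474.ONC.card_cent_eleven (by rw [MulEquiv.orderOf_eq, hx])]
  have n19 : ∀ x : T, orderOf x = 19 →
      Nat.card (normalizer ((zpowers x : Subgroup T) : Set T)) = 19 * (1 * 6) ∧ (Even 6 → IsReal x) := fun x hx =>
    norm_of_cent (n := 24253447680) (by norm_num) (by rw [hc]) (by norm_num) hx (by rw [c19 x hx]) (by norm_num)
      (by norm_num)
  have n11 : ∀ x : T, orderOf x = 11 →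
      Nat.card (normalizer ((zpowers x : Subgroup T) : Set T)) = 11 * (1 * 10) ∧ (Even 10 → IsReal x) := fun x hx =>
    norm_of_cent (n := 41892318720) (by norm_num) (by rw [hc]) (by norm_num) hx (by rw [c11 x hx]) (by norm_num)
      (by norm_num)
  have r19 : RealP T 19 := by
    have : Fact (Nat.Prime 19) := ⟨by norm_num⟩
    obtain ⟨x, hx⟩ := exists_prime_orderOf_dvd_card' (G := T) 19 (by rw [hc]; norm_num)
    exact ⟨x, hx, (n19 x hx).2 (by decide)⟩
  have r11 : RealP T 11 := by
    have : Fact (Nat.Prime 11) := ⟨by norm_num⟩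
    obtain ⟨x, hx⟩ := exists_prime_orderOf_dvd_card' (G := T) 11 (by rw [hc]; norm_num)
    exact ⟨x, hx, (n11 x hx).2 (by decide)⟩
  refine row_of_two (n := 460815505920) (l := [(2, 9), (3, 4), (5, 1), (7, 3), (11, 1), (19, 1), (31, 1)]) (r := 19)
    (nu := 6) (ss := [11]) tab known hc (by norm_num) r19 (fun x hx => (n19 x hx).1) ?_ (by decide +kernel)
  intro s hs
  rw [List.mem_singleton] at hs
  subst hs
  exact ⟨by norm_num, r11, fun z => H257.El.noOrd_of_cent (by norm_num) c19 (by norm_num) (by norm_num) z⟩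

end Cfsg.Agent.H623.OdmRowON
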