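import Cfsg.Agent.H623.PDNum
import Cfsg.Agent.ClassicalGeometry.AutPSL.Root

/-!
Groups with a normal image of `SL ι F` acting as on the points of projective space.
-/

set_option autoImplicit false
set_option linter.unusedSectionVars false

namespace Cfsg.Agent.H623.PD

open MulAction Subgroup Matrix
open scoped Pointwise

section SL

variable {F ι : Type*} [Field F] [Fintype ι] [DecidableEq ι]

theorem exists_tv (w : ι → F) (f : (ι → F) →ₗ[F] F) (hf : f w = 0) :
    ∃ g : SpecialLinearGroup ι F, ∀ v, g.1 *ᵥ v = v + f v • w := by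
  have h1 : ∀ x, f x = (fun i => f (Pi.single i 1)) ⬝ᵥ x := by
    intro x
    rw [LinearMap.pi_apply_eq_sum_univ f x, dotProduct]
    refine Finset.sum_congr rfl fun i _ => ?_
    rw [smul_eq_mul, mul_comm]
    have h3 : (fun j => if i = j then (1 : F) else 0) = Pi.single i 1 := by
      ext j; simp [Pi.single_apply, eq_comm]
    rw [h3]
  have h2 : (fun i => f (Pi.single i 1)) ⬝ᵥ w = 0 := by rw [← h1, hf]
  refine ⟨ClassicalGeometry.AutPSL.Root.tr w _ h2, fun v => ?_⟩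
  rw [h1 v]
  exact ClassicalGeometry.AutPSL.Root.tr_mulVec _ _ _ _

theorem mul_mulVec (A B : SpecialLinearGroup ι F) (x : ι → F) :
    (A * B).1 *ᵥ x = A.1 *ᵥ (B.1 *ᵥ x) := ClassicalGeometry.AutPSL.Root.sl_mul_mulVec A B x

theorem one_mulVec' (x : ι → F) : (1 : SpecialLinearGroup ι F).1 *ᵥ x = x := by
  change (1 : Matrix ι ι F) *ᵥ x = x
  rw [Matrix.one_mulVec]

theorem inv_mulVec_mulVec (A : SpecialLinearGroup ι F) (x : ι → F) :
    (A⁻¹).1 *ᵥ (A.1 *ᵥ x) = x := by
  rw [← mul_mulVec, inv_mul_cancel, one_mulVec']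

theorem mulVec_inv_mulVec (A : SpecialLinearGroup ι F) (x : ι → F) :
    A.1 *ᵥ ((A⁻¹).1 *ᵥ x) = x := by
  rw [← mul_mulVec, mul_inv_cancel, one_mulVec']

theorem mulVec_ne_zero (A : SpecialLinearGroup ι F) {x : ι → F} (hx : x ≠ 0) : A.1 *ᵥ x ≠ 0 := by
  intro h
  apply hx
  rw [← inv_mulVec_mulVec A x, h, Matrix.mulVec_zero]

/-- The functional `f ∘ A`. -/
def comp (f : (ι → F) →ₗ[F] F) (A : SpecialLinearGroup ι F) : (ι → F) →ₗ[F] F :=
  f.comp (Matrix.mulVecLin A.1)

theorem comp_apply (f : (ι → F) →ₗ[F] F) (A : SpecialLinearGroup ι F) (x : ι → F) :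
    comp f A x = f (A.1 *ᵥ x) := rfl

/-- Functionals with a common non-zero value are related by an element fixing any vector on which
they agree. -/
theorem move_of_common {f1 f2 : (ι → F) →ₗ[F] F} {u : ι → F} (hu : f1 u = f2 u) (hu0 : f2 u ≠ 0)
    (v : ι → F) (hv : f1 v = f2 v) :
    ∃ g : SpecialLinearGroup ι F, g.1 *ᵥ v = v ∧ ∀ w, f2 (g.1 *ᵥ w) = f1 w := by
  obtain ⟨g, hg⟩ := exists_tv u ((f2 u)⁻¹ • (f1 - f2)) (by
    simp [hu])
  refine ⟨g, ?_, fun w => ?_⟩
  · rw [hg]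
    simp [hv]
  · rw [hg, map_add, map_smul]
    simp only [LinearMap.smul_apply, LinearMap.sub_apply, smul_eq_mul]
    field_simp
    ring

theorem exists_common {f1 f2 : (ι → F) →ₗ[F] F} (h1 : f1 ≠ 0) (h : ∀ c : F, f2 ≠ c • f1) :
    ∃ u, f1 u = f2 u ∧ f2 u ≠ 0 := by
  by_contra hcon
  push Not at hcon
  -- the kernel of `f1 - f2` lies in the kernel of `f1`
  have h3 : LinearMap.ker (f1 - f2) ≤ LinearMap.ker f1 := by
    intro u hu
    rw [LinearMap.mem_ker, LinearMap.sub_apply, sub_eq_zero] at hu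
    rw [LinearMap.mem_ker, hu]
    exact hcon u hu
  have h4 : f1 ∈ Submodule.span F {f1 - f2} := by
    have := mem_span_of_iInf_ker_le_ker (L := fun _ : Unit => f1 - f2) (K := f1) (by simpa using h3)
    simpa using this
  obtain ⟨c, hc⟩ := Submodule.mem_span_singleton.1 h4
  have hc0 : c ≠ 0 := by
    rintro rfl
    rw [zero_smul] at hc
    exact h1 hc.symm
  apply h (c⁻¹ * (c - 1))
  have h5 : c • f2 = (c - 1) • f1 := by
    apply LinearMap.ext
    intro x
    have h6 := LinearMap.congr_fun hc x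
    simp only [LinearMap.smul_apply, LinearMap.sub_apply, smul_eq_mul] at h6 ⊢
    linear_combination -h6
  rw [mul_smul, ← h5, smul_smul, inv_mul_cancel₀ hc0, one_smul]

theorem exists_functional {v u : ι → F} (h : ∀ c : F, u ≠ c • v) :
    ∃ f : (ι → F) →ₗ[F] F, f v = 0 ∧ f u = 1 := by
  have h1 : u ∉ Submodule.span F {v} := by
    intro hu
    obtain ⟨c, hc⟩ := Submodule.mem_span_singleton.1 hu
    exact h c hc.symm
  obtain ⟨f, hf1, hf2⟩ := Submodule.exists_dual_map_eq_bot_of_notMem h1 inferInstance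
  have hfv : f v = 0 := by
    have : f v ∈ (Submodule.span F {v}).map f := ⟨v, Submodule.mem_span_singleton_self v, rfl⟩
    rw [hf2] at this
    exact this
  refine ⟨(f u)⁻¹ • f, ?_, ?_⟩
  · simp [hfv]
  · simp [hf1]

/-- Transitivity on functionals killing `v`, dimension at least three. -/
theorem move_three (hι : 3 ≤ Fintype.card ι) {f1 f2 : (ι → F) →ₗ[F] F} (h1 : f1 ≠ 0) (h2 : f2 ≠ 0)
    {v : ι → F} (hv1 : f1 v = 0) (hv2 : f2 v = 0) :
    ∃ g : SpecialLinearGroup ι F, g.1 *ᵥ v = v ∧ ∀ w, f2 (g.1 *ᵥ w) = f1 w := by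
  by_cases h : ∀ c : F, f2 ≠ c • f1
  · obtain ⟨u, hu, hu0⟩ := exists_common h1 h
    exact move_of_common hu hu0 v (by rw [hv1, hv2])
  · push Not at h
    obtain ⟨c, hc⟩ := h
    -- a third functional
    obtain ⟨f3, hv3, hf3⟩ : ∃ f3 : (ι → F) →ₗ[F] F, f3 v = 0 ∧ ∀ c : F, f3 ≠ c • f1 := by
      have h5 : ¬ LinearMap.ker f1 ≤ Submodule.span F {v} := by
        intro hle
        have h6 := Submodule.finrank_mono hle
        have h7 : Module.finrank F (Submodule.span F {v}) ≤ 1 := by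
          have := finrank_span_le_card (R := F) ({v} : Set (ι → F))
          simpa using this
        have h8 := LinearMap.finrank_range_add_finrank_ker f1
        have h9 : Module.finrank F (LinearMap.range f1) ≤ 1 := by
          have := Submodule.finrank_le (LinearMap.range f1)
          rwa [Module.finrank_self] at this
        rw [Module.finrank_fintype_fun_eq_card] at h8
        omega
      obtain ⟨u, hu, hu'⟩ := Set.not_subset.1 h5
      obtain ⟨f3, h7, h8⟩ := exists_functional (v := v) (u := u) (by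
        intro c hc
        exact hu' (Submodule.mem_span_singleton.2 ⟨c, hc.symm⟩))
      refine ⟨f3, h7, fun c hc => ?_⟩
      have h9 : f1 u = 0 := hu
      rw [hc, LinearMap.smul_apply, h9, smul_zero] at h8
      exact zero_ne_one h8
    have h30 : f3 ≠ 0 := fun h => hf3 0 (by rw [h, zero_smul])
    obtain ⟨u, hu, hu0⟩ := exists_common h1 hf3
    obtain ⟨g, hg1, hg2⟩ := move_of_common hu hu0 v (by rw [hv1, hv3])
    have hf32 : ∀ c : F, f2 ≠ c • f3 := by
      intro c' hc'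
      have hc0 : c ≠ 0 := by
        rintro rfl
        rw [zero_smul] at hc
        exact h2 hc
      have hc0' : c' ≠ 0 := by
        rintro rfl
        rw [zero_smul] at hc'
        exact h2 hc'
      apply hf3 (c'⁻¹ * c)
      rw [mul_smul, ← hc, hc', smul_smul, inv_mul_cancel₀ hc0', one_smul]
    obtain ⟨u', hu', hu0'⟩ := exists_common h30 hf32
    obtain ⟨g', hg1', hg2'⟩ := move_of_common hu' hu0' v (by rw [hv3, hv2])
    refine ⟨g' * g, ?_, fun w => ?_⟩
    · rw [mul_mulVec, hg1, hg1']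
    · rw [mul_mulVec, hg2', hg2]

/-- Transitivity (up to scalars) on the functionals killing `v`. -/
def Move (v : ι → F) : Prop :=
  ∀ f1 f2 : (ι → F) →ₗ[F] F, f1 ≠ 0 → f2 ≠ 0 → f1 v = 0 → f2 v = 0 →
    ∃ (g : SpecialLinearGroup ι F) (c : F), c ≠ 0 ∧ g.1 *ᵥ v = c • v ∧
      ∀ w, f2 (g.1 *ᵥ w) = c * f1 w

theorem Move.of_three (hι : 3 ≤ Fintype.card ι) (v : ι → F) : Move v := by
  intro f1 f2 h1 h2 hv1 hv2
  obtain ⟨g, hg1, hg2⟩ := move_three hι h1 h2 hv1 hv2
  exact ⟨g, 1, one_ne_zero, by rw [hg1, one_smul], fun w => by rw [hg2, one_mul]⟩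

end SL

/-- `SL ι F` acting as on points. -/
structure Geo (G Ω F ι : Type*) [Group G] [MulAction G Ω] [Field F] [Fintype ι]
    [DecidableEq ι] where
  ρ : SpecialLinearGroup ι F →* G
  P : (ι → F) → Ω
  hP : ∀ (g : SpecialLinearGroup ι F) (v : ι → F), v ≠ 0 → P (g.1 *ᵥ v) = ρ g • P v
  heq : ∀ v w : ι → F, v ≠ 0 → w ≠ 0 → P v = P w → ∃ c : F, w = c • v
  hsmul : ∀ (v : ι → F) (c : F), v ≠ 0 → c ≠ 0 → P (c • v) = P v
  hsurj : ∀ x : Ω, ∃ v, v ≠ 0 ∧ P v = x

section Geo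

variable {G Ω F ι : Type*} [Group G] [MulAction G Ω] [Field F] [Fintype ι] [DecidableEq ι]

namespace Geo

variable (γ : Geo G Ω F ι)

/-- The elation group with centre `v`. -/
def E (v : ι → F) : Subgroup G where
  carrier := {x | ∃ (g : SpecialLinearGroup ι F) (f : (ι → F) →ₗ[F] F), f v = 0 ∧
    (∀ w, g.1 *ᵥ w = w + f w • v) ∧ γ.ρ g = x}
  one_mem' := ⟨1, 0, rfl, fun w => by rw [one_mulVec']; simp, map_one _⟩
  mul_mem' := by
    rintro _ _ ⟨g, f, hf, hg, rfl⟩ ⟨g', f', hf', hg', rfl⟩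
    refine ⟨g * g', f + f', by simp [hf, hf'], fun w => ?_, map_mul _ _ _⟩
    rw [mul_mulVec, hg', hg]
    simp only [map_add, map_smul, hf, LinearMap.add_apply, smul_eq_mul, mul_zero, add_zero]
    module
  inv_mem' := by
    rintro _ ⟨g, f, hf, hg, rfl⟩
    refine ⟨g⁻¹, -f, by simp [hf], fun w => ?_, map_inv _ _⟩
    have h1 : g.1 *ᵥ (w + (-f) w • v) = w := by
      rw [hg]
      simp only [map_add, map_smul, hf, LinearMap.neg_apply, smul_eq_mul, mul_zero, add_zero]
      module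
    rw [← h1, inv_mulVec_mulVec, h1]

theorem mem_E {v : ι → F} {x : G} : x ∈ γ.E v ↔ ∃ (g : SpecialLinearGroup ι F)
    (f : (ι → F) →ₗ[F] F), f v = 0 ∧ (∀ w, g.1 *ᵥ w = w + f w • v) ∧ γ.ρ g = x := Iff.rfl

theorem E_le_range (v : ι → F) : γ.E v ≤ γ.ρ.range := by
  rintro _ ⟨g, f, hf, hg, rfl⟩
  exact ⟨g, rfl⟩

theorem E_le_stab {v : ι → F} (hv : v ≠ 0) : γ.E v ≤ stabilizer G (γ.P v) := by
  rintro _ ⟨g, f, hf, hg, rfl⟩
  rw [mem_stabilizer_iff, ← γ.hP g v hv, hg, hf, zero_smul, add_zero]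

theorem E_comm (v : ι → F) : ∀ x ∈ γ.E v, ∀ y ∈ γ.E v, x * y = y * x := by
  rintro _ ⟨g, f, hf, hg, rfl⟩ _ ⟨g', f', hf', hg', rfl⟩
  rw [← map_mul, ← map_mul]
  congr 1
  apply ClassicalGeometry.AutPSL.Root.sl_ext
  intro w
  rw [mul_mulVec, mul_mulVec, hg', hg, hg, hg']
  simp only [map_add, map_smul, hf, hf', smul_eq_mul, mul_zero, add_zero]
  module

theorem E_smul {v : ι → F} {c : F} (hc : c ≠ 0) : γ.E (c • v) = γ.E v := by
  have key : ∀ (v : ι → F) (c : F), c ≠ 0 → γ.E (c • v) ≤ γ.E v := by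
    rintro v c hc _ ⟨g, f, hf, hg, rfl⟩
    refine ⟨g, c • f, ?_, fun w => ?_, rfl⟩
    · rw [map_smul, smul_eq_mul] at hf
      rw [LinearMap.smul_apply, smul_eq_mul]
      exact hf
    · rw [hg, LinearMap.smul_apply, smul_smul, smul_eq_mul, mul_comm]
  apply le_antisymm (key v c hc)
  have := key (c • v) c⁻¹ (inv_ne_zero hc)
  rwa [smul_smul, inv_mul_cancel₀ hc, one_smul] at this

theorem E_eq_of_P_eq {v w : ι → F} (hv : v ≠ 0) (hw : w ≠ 0) (h : γ.P v = γ.P w) :
    γ.E v = γ.E w := by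
  obtain ⟨c, rfl⟩ := γ.heq v w hv hw h
  have hc : c ≠ 0 := by
    rintro rfl
    rw [zero_smul] at hw
    exact hw rfl
  rw [γ.E_smul hc]

/-- Elements of the image stabilising a point. -/
theorem exists_of_mem {v : ι → F} (hv : v ≠ 0) {x : G} (hx : x ∈ γ.ρ.range)
    (hs : x ∈ stabilizer G (γ.P v)) :
    ∃ (g : SpecialLinearGroup ι F) (c : F), γ.ρ g = x ∧ c ≠ 0 ∧ g.1 *ᵥ v = c • v := by
  obtain ⟨g, rfl⟩ := hx
  rw [mem_stabilizer_iff, ← γ.hP g v hv] at hs
  obtain ⟨c, hc⟩ := γ.heq v _ hv (mulVec_ne_zero g hv) hs.symm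
  refine ⟨g, c, rfl, ?_, hc⟩
  rintro rfl
  rw [zero_smul] at hc
  exact mulVec_ne_zero g hv hc

theorem ρ_eq_of_P [FaithfulSMul G Ω] {g h : SpecialLinearGroup ι F}
    (hgh : ∀ v, v ≠ 0 → γ.P (g.1 *ᵥ v) = γ.P (h.1 *ᵥ v)) : γ.ρ g = γ.ρ h := by
  apply FaithfulSMul.eq_of_smul_eq_smul (α := Ω)
  intro x
  obtain ⟨v, hv, rfl⟩ := γ.hsurj x
  rw [← γ.hP g v hv, ← γ.hP h v hv, hgh v hv]

/-- Conjugation of an elation. -/
theorem conj_tv {v : ι → F} {g t : SpecialLinearGroup ι F} {f : (ι → F) →ₗ[F] F} {c : F}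
    (hg : g.1 *ᵥ v = c • v) (ht : ∀ w, t.1 *ᵥ w = w + f w • v) (w : ι → F) :
    (g * t * g⁻¹).1 *ᵥ w = w + (c * f ((g⁻¹).1 *ᵥ w)) • v := by
  rw [mul_mulVec, mul_mulVec, ht, Matrix.mulVec_add, mulVec_inv_mulVec, Matrix.mulVec_smul, hg,
    smul_smul, mul_comm]

/-- Every non-trivial normal subgroup of the stabiliser in the image contains the elations. -/
theorem E_le_of_normal [FaithfulSMul G Ω] {v : ι → F} (hv : v ≠ 0) (hmv : Move v) (N : Subgroup G)
    (hN1 : N ≤ γ.ρ.range) (hN2 : N ≤ stabilizer G (γ.P v)) (hN0 : N ≠ ⊥)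
    (hN : ∀ x ∈ N, ∀ y ∈ γ.ρ.range, y ∈ stabilizer G (γ.P v) → y * x * y⁻¹ ∈ N) :
    γ.E v ≤ N := by
  -- Step A: a nontrivial elation in `N`
  have hA : ∃ (t : SpecialLinearGroup ι F) (f : (ι → F) →ₗ[F] F), f v = 0 ∧ f ≠ 0 ∧
      (∀ w, t.1 *ᵥ w = w + f w • v) ∧ γ.ρ t ∈ N := by
    obtain ⟨n, hn, hn1⟩ := (bot_or_exists_ne_one N).resolve_left hN0
    obtain ⟨g, c, hgn, hc, hgv⟩ := γ.exists_of_mem hv (hN1 hn) (hN2 hn)
    have hinv : (g⁻¹).1 *ᵥ v = c⁻¹ • v := by
      have h1 := inv_mulVec_mulVec g v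
      rw [hgv, Matrix.mulVec_smul] at h1
      rw [← h1, smul_smul, inv_mul_cancel₀ hc, one_smul, h1]
    by_cases h : ∀ f : (ι → F) →ₗ[F] F, f v = 0 → ∀ w, c * f ((g⁻¹).1 *ᵥ w) = f w
    · -- `g⁻¹` is an elation up to a scalar
      obtain ⟨χ, hχ⟩ : ∃ χ : (ι → F) →ₗ[F] F, χ v = 1 := by
        obtain ⟨f, -, hf⟩ := exists_functional (v := (0 : ι → F)) (u := v) (by
          intro c h; rw [smul_zero] at h; exact hv h)
        exact ⟨f, hf⟩
      let ψ : (ι → F) →ₗ[F] F := c • comp χ g⁻¹ - χ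
      have hψ : ∀ w, ψ w = c * χ ((g⁻¹).1 *ᵥ w) - χ w := fun w => rfl
      have key : ∀ w, c • ((g⁻¹).1 *ᵥ w) = w + ψ w • v := by
        intro w
        have h1 : ∃ d : F, c • ((g⁻¹).1 *ᵥ w) - w = d • v := by
          by_contra hcon
          push Not at hcon
          obtain ⟨f, hf1, hf2⟩ := exists_functional hcon
          rw [map_sub, map_smul, smul_eq_mul, h f hf1 w, sub_self] at hf2
          exact zero_ne_one hf2
        obtain ⟨d, hd⟩ := h1
        have h2 : ψ w = d := by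
          rw [hψ, ← smul_eq_mul, ← map_smul, ← map_sub, hd, map_smul, hχ, smul_eq_mul, mul_one]
        rw [h2, ← hd]
        abel
      have hψv : ψ v = 0 := by
        rw [hψ, hinv, map_smul, hχ, smul_eq_mul, mul_one, mul_inv_cancel₀ hc, sub_self]
      obtain ⟨t, ht⟩ := exists_tv v ψ hψv
      have h3 : γ.ρ g⁻¹ = γ.ρ t := by
        apply γ.ρ_eq_of_P
        intro w hw
        rw [ht, ← key w, γ.hsmul _ _ (mulVec_ne_zero _ hw) hc]
      refine ⟨t, ψ, hψv, ?_, ht, ?_⟩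
      · intro h0
        apply hn1
        have h4 : t = 1 := by
          apply ClassicalGeometry.AutPSL.Root.sl_ext
          intro w
          rw [ht, h0]
          change w + (0 : F) • v = (1 : SpecialLinearGroup ι F).1 *ᵥ w
          rw [zero_smul, add_zero, one_mulVec']
        rw [h4, map_one, map_inv, inv_eq_one] at h3
        rw [← hgn, h3]
      · rw [← h3, map_inv, hgn]
        exact N.inv_mem hn
    · push Not at h
      obtain ⟨f, hf, w0, hw0⟩ := h
      obtain ⟨t, ht⟩ := exists_tv v f hf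
      have htE : γ.ρ t ∈ γ.E v := ⟨t, f, hf, ht, rfl⟩
      obtain ⟨t', ht'⟩ := exists_tv v (c • comp f g⁻¹ - f) (by
        change c * f ((g⁻¹).1 *ᵥ v) - f v = 0
        rw [hinv, map_smul, hf, smul_zero, mul_zero, sub_zero])
      refine ⟨t', c • comp f g⁻¹ - f, ?_, ?_, ht', ?_⟩
      · change c * f ((g⁻¹).1 *ᵥ v) - f v = 0
        rw [hinv, map_smul, hf, smul_zero, mul_zero, sub_zero]
      · intro h0
        apply hw0
        have := LinearMap.congr_fun h0 w0
        change c * f ((g⁻¹).1 *ᵥ w0) - f w0 = 0 at this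
        exact sub_eq_zero.1 this
      · have h5 : t' = g * (t * g⁻¹ * t⁻¹) := by
          apply ClassicalGeometry.AutPSL.Root.sl_ext
          intro w
          have h6 : g * (t * g⁻¹ * t⁻¹) = (g * t * g⁻¹) * t⁻¹ := by group
          have ht1 : ∀ w, (t⁻¹).1 *ᵥ w = w - f w • v := by
            intro w
            have h7 : t.1 *ᵥ (w - f w • v) = w := by
              rw [ht]
              simp only [map_sub, map_smul, hf, smul_eq_mul, mul_zero, sub_zero]
              abel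
            rw [← h7, inv_mulVec_mulVec, h7]
          rw [h6, ht', mul_mulVec, conj_tv hgv ht, ht1]
          change w + (c * f ((g⁻¹).1 *ᵥ w) - f w) • v = _
          rw [Matrix.mulVec_sub, Matrix.mulVec_smul, hinv, map_sub, map_smul, map_smul, hf]
          simp only [smul_eq_mul, mul_zero, sub_zero]
          module
        rw [h5, map_mul, hgn]
        refine N.mul_mem hn ?_
        rw [map_mul, map_mul, map_inv, map_inv, hgn]
        exact hN _ (N.inv_mem hn) _ (γ.E_le_range v htE) (γ.E_le_stab hv htE)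
  obtain ⟨t, f, hfv, hf0, ht, htN⟩ := hA
  rintro _ ⟨t2, f2, hf2v, ht2, rfl⟩
  by_cases hf2 : f2 = 0
  · have h4 : t2 = 1 := by
      apply ClassicalGeometry.AutPSL.Root.sl_ext
      intro w
      rw [ht2, hf2]
      change w + (0 : F) • v = (1 : SpecialLinearGroup ι F).1 *ᵥ w
      rw [zero_smul, add_zero, one_mulVec']
    rw [h4, map_one]
    exact N.one_mem
  · obtain ⟨g, c, hc, hgv, hg⟩ := hmv f f2 hf0 hf2 hfv hf2v
    have h5 : t2 = g * t * g⁻¹ := by
      apply ClassicalGeometry.AutPSL.Root.sl_ext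
      intro w
      rw [ht2, conj_tv hgv ht, ← hg, mulVec_inv_mulVec]
    rw [h5, map_mul, map_mul, map_inv]
    refine hN _ htN _ ⟨g, rfl⟩ ?_
    rw [mem_stabilizer_iff, ← γ.hP g v hv, hgv, γ.hsmul v c hv hc]

theorem E_ne_bot [FaithfulSMul G Ω] (hι : 2 ≤ Fintype.card ι) {v : ι → F} (hv : v ≠ 0) :
    γ.E v ≠ ⊥ := by
  obtain ⟨u, hu⟩ : ∃ u : ι → F, ∀ c : F, u ≠ c • v := by
    by_contra hcon
    push Not at hcon
    have h1 : (⊤ : Submodule F (ι → F)) ≤ Submodule.span F {v} := by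
      intro u _
      obtain ⟨c, hc⟩ := hcon u
      exact Submodule.mem_span_singleton.2 ⟨c, hc.symm⟩
    have h2 := Submodule.finrank_mono h1
    have h3 : Module.finrank F (Submodule.span F {v}) ≤ 1 := by
      have := finrank_span_le_card (R := F) ({v} : Set (ι → F))
      simpa using this
    rw [finrank_top, Module.finrank_fintype_fun_eq_card] at h2
    omega
  have hu0 : u ≠ 0 := fun h => hu 0 (by rw [h, zero_smul])
  obtain ⟨f, hf1, hf2⟩ := exists_functional hu
  obtain ⟨t, ht⟩ := exists_tv v f hf1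
  intro h
  have h1 : γ.ρ t ∈ γ.E v := ⟨t, f, hf1, ht, rfl⟩
  rw [h, mem_bot] at h1
  have h2 := γ.hP t u hu0
  rw [h1, one_smul, ht, hf2, one_smul] at h2
  obtain ⟨c, hc⟩ := γ.heq u (u + v) hu0 (by
    intro h'
    exact hu (-1) (by rw [neg_smul, one_smul]; exact eq_neg_of_add_eq_zero_left h')) h2.symm
  have h3 : v = (c - 1) • u := by
    rw [sub_smul, one_smul, ← hc]; abel
  by_cases hc1 : c - 1 = 0
  · rw [hc1, zero_smul] at h3
    exact hv h3
  · apply hu (c - 1)⁻¹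
    rw [h3, smul_smul, inv_mul_cancel₀ hc1, one_smul]

theorem E_normal {v : ι → F} (hv : v ≠ 0) : ∀ x ∈ γ.E v, ∀ y ∈ γ.ρ.range,
    y ∈ stabilizer G (γ.P v) → y * x * y⁻¹ ∈ γ.E v := by
  rintro _ ⟨t, f, hf, ht, rfl⟩ y hy hys
  obtain ⟨g, c, rfl, hc, hgv⟩ := γ.exists_of_mem hv hy hys
  have hinv : (g⁻¹).1 *ᵥ v = c⁻¹ • v := by
    have h1 := inv_mulVec_mulVec g v
    rw [hgv, Matrix.mulVec_smul] at h1
    rw [← h1, smul_smul, inv_mul_cancel₀ hc, one_smul, h1]
  refine ⟨g * t * g⁻¹, c • comp f g⁻¹, ?_, fun w => conj_tv hgv ht w, by simp⟩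
  change c * f ((g⁻¹).1 *ᵥ v) = 0
  rw [hinv, map_smul, hf, smul_zero, mul_zero]

/-- Conjugation of elation groups by arbitrary elements. -/
theorem conj_E [FaithfulSMul G Ω] (hn : γ.ρ.range.Normal) (hι : 2 ≤ Fintype.card ι)
    (hmv : ∀ v : ι → F, v ≠ 0 → Move v) (k : G) {v w : ι → F} (hv : v ≠ 0) (hw : w ≠ 0)
    (h : γ.P w = k • γ.P v) : ∀ x ∈ γ.E v, k * x * k⁻¹ ∈ γ.E w := by
  have key : γ.E v ≤ (γ.E w).comap (MulAut.conj k).toMonoidHom := by
    apply γ.E_le_of_normal hv (hmv v hv)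
    · intro x hx
      have h1 : k * x * k⁻¹ ∈ γ.ρ.range := γ.E_le_range w hx
      have h2 := hn.conj_mem _ h1 k⁻¹
      have h3 : k⁻¹ * (k * x * k⁻¹) * k⁻¹⁻¹ = x := by group
      rwa [h3] at h2
    · intro x hx
      have h1 : k * x * k⁻¹ ∈ stabilizer G (γ.P w) := γ.E_le_stab hw hx
      rw [mem_stabilizer_iff, h, mul_smul, mul_smul, inv_smul_smul] at h1
      exact MulAction.injective k h1
    · obtain ⟨x, hx, hx1⟩ := (bot_or_exists_ne_one _).resolve_left (γ.E_ne_bot hι hw)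
      intro hb
      have h1 : k⁻¹ * x * k ∈ (γ.E w).comap (MulAut.conj k).toMonoidHom := by
        change k * (k⁻¹ * x * k) * k⁻¹ ∈ γ.E w
        have h3 : k * (k⁻¹ * x * k) * k⁻¹ = x := by group
        rwa [h3]
      rw [hb, mem_bot] at h1
      apply hx1
      have h3 : x = k * (k⁻¹ * x * k) * k⁻¹ := by group
      rw [h3, h1]
      group
    · intro x hx y hy hys
      change k * (y * x * y⁻¹) * k⁻¹ ∈ γ.E w
      have h1 : k * (y * x * y⁻¹) * k⁻¹ = (k * y * k⁻¹) * (k * x * k⁻¹) * (k * y * k⁻¹)⁻¹ := by group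
      rw [h1]
      refine γ.E_normal hw _ hx _ (hn.conj_mem _ hy k) ?_
      rw [mem_stabilizer_iff, h, mul_smul, mul_smul, inv_smul_smul]
      rw [show y • γ.P v = γ.P v from hys]
  intro x hx
  exact key hx

theorem conj_E_iff [FaithfulSMul G Ω] (hn : γ.ρ.range.Normal) (hι : 2 ≤ Fintype.card ι)
    (hmv : ∀ v : ι → F, v ≠ 0 → Move v) {k : G} {v : ι → F} (hv : v ≠ 0)
    (hk : k ∈ stabilizer G (γ.P v)) (x : G) : x ∈ γ.E v ↔ k * x * k⁻¹ ∈ γ.E v := by
  constructor
  · exact γ.conj_E hn hι hmv k hv hv (Eq.symm hk) x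
  · intro h
    have h1 := γ.conj_E hn hι hmv k⁻¹ hv hv (by
      have h2 : k • γ.P v = γ.P v := hk
      rw [eq_inv_smul_iff]; exact h2) _ h
    have h3 : k⁻¹ * (k * x * k⁻¹) * k⁻¹⁻¹ = x := by group
    rwa [h3] at h1

/-- If the elations with centre `a` preserve `B`, we have a contradiction. -/
theorem false_of_le [FaithfulSMul G Ω] (hn : γ.ρ.range.Normal) (hι : 2 ≤ Fintype.card ι)
    (hmv : ∀ v : ι → F, v ≠ 0 → Move v) {a : Ω} {B Γ : Set Ω} (hbad : Bad G a B Γ)
    {v0 : ι → F} (hv0 : v0 ≠ 0) (ha : γ.P v0 = a) (hle : γ.E v0 ≤ UU G a B) : False := by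
  -- all elation groups with centre in `B` preserve `B`
  have h1 : ∀ v : ι → F, v ≠ 0 → γ.P v ∈ B → γ.E v ≤ stabilizer G B := by
    intro v hv hvB x hx
    obtain ⟨k, hk, hka⟩ := hbad.trB _ hvB
    have h2 := γ.conj_E hn hι hmv k⁻¹ hv hv0 (by rw [ha, ← hka, inv_smul_smul]) x hx
    have h3 : k⁻¹ * x * k⁻¹⁻¹ ∈ stabilizer G B := (hle h2).2
    have h4 : k * (k⁻¹ * x * k⁻¹⁻¹) * k⁻¹ = x := by group
    rw [← h4]
    exact (stabilizer G B).mul_mem ((stabilizer G B).mul_mem hk h3) ((stabilizer G B).inv_mem hk)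
  -- `B` comes from a submodule
  have hadd : ∀ v w : ι → F, v ≠ 0 → w ≠ 0 → v + w ≠ 0 → γ.P v ∈ B → γ.P w ∈ B →
      γ.P (v + w) ∈ B := by
    intro v w hv hw hvw hvB hwB
    by_cases h : ∃ c : F, w = c • v
    · obtain ⟨c, rfl⟩ := h
      have h2 : v + c • v = (1 + c) • v := by rw [add_smul, one_smul]
      have h3 : 1 + c ≠ 0 := by
        intro h0
        rw [h2, h0, zero_smul] at hvw
        exact hvw rfl
      rw [h2, γ.hsmul v _ hv h3]
      exact hvB
    · push Not at h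
      obtain ⟨f, hf1, hf2⟩ := exists_functional h
      obtain ⟨t, ht⟩ := exists_tv v f hf1
      have h2 : γ.ρ t ∈ stabilizer G B := h1 v hv hvB ⟨t, f, hf1, ht, rfl⟩
      have h3 : γ.P (v + w) = γ.ρ t • γ.P w := by
        rw [← γ.hP t w hw, ht, hf2, one_smul, add_comm]
      have h4 : γ.ρ t • B = B := h2
      rw [h3, ← h4]
      exact Set.smul_mem_smul_set hwB
  let W : Submodule F (ι → F) :=
    { carrier := {v | v = 0 ∨ γ.P v ∈ B}
      zero_mem' := Or.inl rfl
      add_mem' := by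
        rintro v w (rfl | hv) (rfl | hw)
        · left; rw [add_zero]
        · right; rw [zero_add]; exact hw
        · right; rw [add_zero]; exact hv
        · by_cases hv0 : v = 0
          · right; rw [hv0, zero_add]; exact hw
          · by_cases hw0 : w = 0
            · right; rw [hw0, add_zero]; exact hv
            · by_cases hvw : v + w = 0
              · left; exact hvw
              · right; exact hadd v w hv0 hw0 hvw hv hw
      smul_mem' := by
        rintro c v (rfl | hv)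
        · left; rw [smul_zero]
        · by_cases hv0 : v = 0
          · left; rw [hv0, smul_zero]
          · by_cases hc : c = 0
            · left; rw [hc, zero_smul]
            · right; rw [γ.hsmul v c hv0 hc]; exact hv }
  have hW : ∀ v : ι → F, v ≠ 0 → (v ∈ W ↔ γ.P v ∈ B) := by
    intro v hv
    constructor
    · rintro (h | h)
      · exact absurd h hv
      · exact h
    · exact fun h => Or.inr h
  apply hbad.false_of_move
  intro x hx hxB y hy
  obtain ⟨vx, hvx, rfl⟩ := γ.hsurj x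
  obtain ⟨vy, hvy, rfl⟩ := γ.hsurj y
  have hxW : vx ∉ W := fun h => hxB ((hW _ hvx).1 h)
  have hyW : vy ∉ W := fun h => hy (hbad.sub.1 ((hW _ hvy).1 h))
  obtain ⟨f, hfx, hfy, hfW⟩ : ∃ f : (ι → F) →ₗ[F] F, f vx ≠ 0 ∧ f vy ≠ 0 ∧ ∀ w ∈ W, f w = 0 := by
    obtain ⟨f1, h11, h12⟩ := Submodule.exists_dual_map_eq_bot_of_notMem hxW inferInstance
    obtain ⟨f2, h21, h22⟩ := Submodule.exists_dual_map_eq_bot_of_notMem hyW inferInstance
    have h13 : ∀ w ∈ W, f1 w = 0 := by
      intro w hw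
      have : f1 w ∈ W.map f1 := ⟨w, hw, rfl⟩
      rw [h12] at this
      exact this
    have h23 : ∀ w ∈ W, f2 w = 0 := by
      intro w hw
      have : f2 w ∈ W.map f2 := ⟨w, hw, rfl⟩
      rw [h22] at this
      exact this
    by_cases h1y : f1 vy = 0
    · by_cases h2x : f2 vx = 0
      · refine ⟨f1 + f2, ?_, ?_, fun w hw => ?_⟩
        · rw [LinearMap.add_apply, h2x, add_zero]; exact h11
        · rw [LinearMap.add_apply, h1y, zero_add]; exact h21
        · rw [LinearMap.add_apply, h13 w hw, h23 w hw, add_zero]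
      · exact ⟨f2, h2x, h21, h23⟩
    · exact ⟨f1, h11, h1y, h13⟩
  set u := (f vx * (f vy)⁻¹) • vy - vx with hu
  have hfu : f u = 0 := by
    rw [hu, map_sub, map_smul, smul_eq_mul, mul_assoc, inv_mul_cancel₀ hfy, mul_one, sub_self]
  obtain ⟨t, ht⟩ := exists_tv u ((f vx)⁻¹ • f) (by rw [LinearMap.smul_apply, hfu, smul_zero])
  refine ⟨γ.ρ t, ?_, ?_⟩
  · have hfix : ∀ z ∈ B, γ.ρ t • z = z := by
      intro z hz
      obtain ⟨w, hw, rfl⟩ := γ.hsurj z
      have hwW : w ∈ W := (hW w hw).2 hz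
      rw [← γ.hP t w hw, ht, LinearMap.smul_apply, hfW w hwW, smul_zero, zero_smul, add_zero]
    ext z
    constructor
    · rintro ⟨z', hz', rfl⟩
      change γ.ρ t • z' ∈ B
      rw [hfix z' hz']
      exact hz'
    · intro hz
      exact ⟨z, hz, hfix z hz⟩
  · rw [← γ.hP t vx hvx, ht, LinearMap.smul_apply, smul_eq_mul, inv_mul_cancel₀ hfx, one_smul, hu]
    rw [add_sub_cancel, γ.hsmul vy _ hvy (mul_ne_zero hfx (inv_ne_zero hfy))]

/-- Otherwise the index of `U` is the number of elations with centre `a`. -/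
theorem rr_eq [FaithfulSMul G Ω] [Finite G] (hn : γ.ρ.range.Normal) (hι : 2 ≤ Fintype.card ι)
    (hmv : ∀ v : ι → F, v ≠ 0 → Move v) {a : Ω} {B Γ : Set Ω} (hbad : Bad G a B Γ)
    {v0 : ι → F} (hv0 : v0 ≠ 0) (ha : γ.P v0 = a) :
    UU G a B ⊓ γ.E v0 = ⊥ ∧ rr G a B = Nat.card (γ.E v0) := by
  have hnle : ¬ γ.E v0 ≤ UU G a B := fun h => γ.false_of_le hn hι hmv hbad hv0 ha h
  have hEH : γ.E v0 ≤ stabilizer G a := ha ▸ γ.E_le_stab hv0
  have hnorm : stabilizer G a ≤ normalizer ((γ.E v0 : Subgroup G) : Set G) := by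
    intro k hk
    rw [mem_normalizer_iff]
    rw [← ha] at hk
    exact γ.conj_E_iff hn hι hmv hv0 hk
  have hsup : stabilizer G a ≤ UU G a B ⊔ γ.E v0 := by
    rcases hbad.max (UU G a B ⊔ γ.E v0) le_sup_left (sup_le UU_le hEH) with h1 | h1
    · exact absurd (le_trans le_sup_right h1.le) hnle
    · exact h1.ge
  have hbot : UU G a B ⊓ γ.E v0 = ⊥ := by
    by_contra hne
    apply hnle
    refine le_trans (γ.E_le_of_normal hv0 (hmv v0 hv0) (UU G a B ⊓ γ.E v0)
      (inf_le_right.trans (γ.E_le_range v0)) (inf_le_right.trans (γ.E_le_stab hv0)) hne ?_)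
      inf_le_left
    -- `U ∩ E` is normalised by `H = U E`
    have hnm : stabilizer G a ≤ normalizer ((UU G a B ⊓ γ.E v0 : Subgroup G) : Set G) := by
      refine hsup.trans (sup_le ?_ ?_)
      · intro u hu
        rw [mem_normalizer_iff]
        intro x
        have h1 := (mem_normalizer_iff.1 (hnorm (UU_le hu))) x
        constructor
        · rintro ⟨hx1, hx2⟩
          exact ⟨(UU G a B).mul_mem ((UU G a B).mul_mem hu hx1) ((UU G a B).inv_mem hu), h1.1 hx2⟩
        · rintro ⟨hx1, hx2⟩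
          refine ⟨?_, h1.2 hx2⟩
          have h2 : u⁻¹ * (u * x * u⁻¹) * u = x := by group
          rw [← h2]
          exact (UU G a B).mul_mem ((UU G a B).mul_mem ((UU G a B).inv_mem hu) hx1) hu
      · intro e he
        rw [mem_normalizer_iff]
        intro x
        constructor
        · rintro ⟨hx1, hx2⟩
          have h3 : e * x * e⁻¹ = x := by rw [γ.E_comm v0 e he x hx2, mul_inv_cancel_right]
          rw [h3]
          exact ⟨hx1, hx2⟩
        · rintro ⟨hx1, hx2⟩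
          have h4 : x ∈ γ.E v0 := by
            have h2 : e⁻¹ * (e * x * e⁻¹) * e = x := by group
            rw [← h2]
            exact (γ.E v0).mul_mem ((γ.E v0).mul_mem ((γ.E v0).inv_mem he) hx2) he
          have h3 : e * x * e⁻¹ = x := by rw [γ.E_comm v0 e he x h4, mul_inv_cancel_right]
          rw [h3] at hx1
          exact ⟨hx1, h4⟩
    intro x hx y _ hy
    rw [ha] at hy
    exact (mem_normalizer_iff.1 (hnm hy) x).1 hx
  refine ⟨hbot, ?_⟩
  have h1 := relIndex_mul_inf (U := UU G a B) (H := stabilizer G a) (N := γ.E v0) UU_le hEH hnorm hsup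
  rw [hbot, card_bot, mul_one] at h1
  exact h1

/-- The number of elations. -/
theorem card_E [Finite F] (hι : 2 ≤ Fintype.card ι) {v : ι → F} (hv : v ≠ 0) :
    Nat.card (γ.E v) = Nat.card F ^ (Fintype.card ι - 1) := by
  classical
  -- choose `χ` with `χ v = 1`
  obtain ⟨χ, hχ⟩ : ∃ χ : (ι → F) →ₗ[F] F, χ v = 1 := by
    obtain ⟨f, -, hf⟩ := exists_functional (v := (0 : ι → F)) (u := v) (by
      intro c h; rw [smul_zero] at h; exact hv h)
    exact ⟨f, hf⟩
  let A : Submodule F ((ι → F) →ₗ[F] F) := LinearMap.ker (LinearMap.applyₗ (R := F) v)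
  have hA : ∀ f : (ι → F) →ₗ[F] F, f ∈ A ↔ f v = 0 := fun f => by
    rw [LinearMap.mem_ker]; rfl
  have hcardA : Nat.card A = Nat.card F ^ (Fintype.card ι - 1) := by
    rw [Module.natCard_eq_pow_finrank (K := F)]
    congr 1
    have h1 := LinearMap.finrank_range_add_finrank_ker
      (LinearMap.applyₗ (R := F) (M₂ := F) v : ((ι → F) →ₗ[F] F) →ₗ[F] F)
    have h2 : LinearMap.range (LinearMap.applyₗ (R := F) (M₂ := F) v :
        ((ι → F) →ₗ[F] F) →ₗ[F] F) = ⊤ := by
      rw [LinearMap.range_eq_top]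
      intro c
      refine ⟨c • χ, ?_⟩
      change (c • χ) v = c
      rw [LinearMap.smul_apply, hχ, smul_eq_mul, mul_one]
    rw [h2, finrank_top, Module.finrank_self, Subspace.dual_finrank_eq,
      Module.finrank_fintype_fun_eq_card] at h1
    have h3 : 1 + Module.finrank F A = Fintype.card ι := h1
    omega
  rw [← hcardA]
  symm
  choose! T hT using fun (f : (ι → F) →ₗ[F] F) (hf : f v = 0) => exists_tv v f hf
  refine Nat.card_congr (Equiv.ofBijective
    (fun f : A => (⟨γ.ρ (T f.1), T f.1, f.1, (hA _).1 f.2, hT f.1 ((hA _).1 f.2), rfl⟩ : γ.E v)) ⟨?_, ?_⟩)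
  · rintro ⟨f, hf⟩ ⟨f', hf'⟩ h
    have h1 : γ.ρ (T f) = γ.ρ (T f') := congrArg Subtype.val h
    apply Subtype.ext
    apply LinearMap.ext
    intro w
    rw [hA] at hf hf'
    by_cases hw : ∃ c : F, w = c • v
    · obtain ⟨c, rfl⟩ := hw
      rw [map_smul, map_smul]
      change c • f v = c • f' v
      rw [hf, hf']
    · have hw0 : w ≠ 0 := fun h' => hw ⟨0, by rw [h', zero_smul]⟩
      have h2 := γ.hP (T f) w hw0
      rw [h1, ← γ.hP (T f') w hw0, hT f hf, hT f' hf'] at h2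
      have hne : ∀ c : F, w + c • v ≠ 0 := by
        intro c h0
        apply hw
        refine ⟨-c, ?_⟩
        rw [neg_smul]
        exact eq_neg_of_add_eq_zero_left h0
      obtain ⟨c, hc⟩ := γ.heq _ _ (hne _) (hne _) h2
      have h3 : (1 - c) • w = (c * f w - f' w) • v := by
        rw [smul_add, smul_smul] at hc
        rw [sub_smul, sub_smul, one_smul]
        rw [← sub_eq_zero] at hc ⊢
        rw [← hc]
        abel
      change f w = f' w
      by_cases hc1 : 1 - c = 0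
      · have hc2 : c = 1 := (sub_eq_zero.1 hc1).symm
        rw [hc1, zero_smul, hc2, one_mul] at h3
        have := smul_eq_zero.1 h3.symm
        rcases this with h4 | h4
        · exact sub_eq_zero.1 h4
        · exact absurd h4 hv
      · exfalso
        apply hw
        refine ⟨(1 - c)⁻¹ * (c * f w - f' w), ?_⟩
        rw [mul_smul, ← h3, smul_smul, inv_mul_cancel₀ hc1, one_smul]
  · rintro ⟨_, g, f, hf, hg, rfl⟩
    refine ⟨⟨f, (hA f).2 hf⟩, Subtype.ext ?_⟩
    change γ.ρ (T f) = γ.ρ g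
    congr 1
    apply ClassicalGeometry.AutPSL.Root.sl_ext
    intro w
    rw [hT f hf, hg]

include γ in
/-- The number of points. -/
theorem card_Ω [Finite F] :
    Nat.card Ω * (Nat.card F - 1) = Nat.card F ^ Fintype.card ι - 1 := by
  classical
  have := Fintype.ofFinite F
  choose s hs0 hs using γ.hsurj
  have h1 : Nat.card {v : ι → F // v ≠ 0} = Nat.card F ^ Fintype.card ι - 1 := by
    rw [Nat.card_eq_fintype_card, Fintype.card_subtype_compl, Fintype.card_subtype_eq,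
      Fintype.card_fun, Nat.card_eq_fintype_card]
  have h2 : Nat.card Fˣ = Nat.card F - 1 := by
    rw [Nat.card_eq_fintype_card, Fintype.card_units, Nat.card_eq_fintype_card]
  rw [← h1, ← h2, ← Nat.card_prod]
  refine Nat.card_congr (Equiv.ofBijective
    (fun y : Ω × Fˣ => (⟨(y.2 : F) • s y.1, smul_ne_zero y.2.ne_zero (hs0 y.1)⟩ :
      {v : ι → F // v ≠ 0})) ⟨?_, ?_⟩)
  · rintro ⟨x, c⟩ ⟨x', c'⟩ h
    have h3 : (c : F) • s x = (c' : F) • s x' := congrArg Subtype.val h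
    have h4 : x = x' := by
      rw [← hs x, ← hs x', ← γ.hsmul (s x) c (hs0 x) c.ne_zero, h3,
        γ.hsmul (s x') c' (hs0 x') c'.ne_zero]
    subst h4
    have h5 : ((c : F) - c') • s x = 0 := by rw [sub_smul, h3, sub_self]
    rcases smul_eq_zero.1 h5 with h6 | h6
    · rw [Prod.mk.injEq]
      exact ⟨rfl, Units.ext (sub_eq_zero.1 h6)⟩
    · exact absurd h6 (hs0 x)
  · rintro ⟨v, hv⟩
    obtain ⟨c, hc⟩ := γ.heq (s (γ.P v)) v (hs0 _) hv (hs _)
    have hc0 : c ≠ 0 := by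
      rintro rfl
      rw [zero_smul] at hc
      exact hv hc
    exact ⟨(γ.P v, Units.mk0 c hc0), Subtype.ext hc.symm⟩

end Geo

end Geo

/-- Numerical contradiction in dimension at least three. -/
theorem numeric {q d p r b g : ℕ} (hd : 3 ≤ d) (hq : 2 ≤ q) (hp : p * (q - 1) = q ^ d - 1)
    (hr : r = q ^ (d - 1)) (hb2 : 2 ≤ b) (hbg : b ∣ g) (hlt : b < g) (hg : g ∣ r)
    (h1 : p - 1 ∣ r * (b - 1)) (h2 : p - 1 ∣ r * (g - 1)) : False := by
  obtain ⟨e, rfl⟩ : ∃ e, d = e + 3 := ⟨d - 3, by omega⟩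
  have hgeom : ∀ n : ℕ, (∑ i ∈ Finset.range n, q ^ i) * (q - 1) = q ^ n - 1 := by
    intro n
    rw [Nat.geomSum_eq hq]
    exact Nat.div_mul_cancel (by simpa using Nat.sub_dvd_pow_sub_pow q 1 n)
  have hps : p = ∑ i ∈ Finset.range (e + 3), q ^ i := by
    have h3 := hgeom (e + 3)
    rw [← hp] at h3
    exact (Nat.eq_of_mul_eq_mul_right (by omega) h3).symm
  set N := ∑ i ∈ Finset.range (e + 2), q ^ i with hN
  have hN1 : N * (q - 1) = q ^ (e + 2) - 1 := hgeom (e + 2)
  have hpN : p = q * N + 1 := by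
    rw [hps, Finset.sum_range_succ', pow_zero, hN, Finset.mul_sum]
    congr 1
    exact Finset.sum_congr rfl fun i _ => by rw [pow_succ]; ring
  have hNq : N = 1 + q * ∑ i ∈ Finset.range (e + 1), q ^ i := by
    rw [hN, Finset.sum_range_succ', pow_zero, add_comm, Finset.mul_sum]
    congr 1
    exact Finset.sum_congr rfl fun i _ => by rw [pow_succ]; ring
  have hcop : Nat.Coprime N q := by
    rw [hNq]
    simp
  have hS1 : 1 ≤ ∑ i ∈ Finset.range (e + 1), q ^ i := by
    rw [Finset.sum_range_succ']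
    simp
  have hNge : q + 1 ≤ N := by
    rw [hNq]
    nlinarith
  have hr' : r = q ^ (e + 2) := by rw [hr]; congr 1
  have hcopr : Nat.Coprime N r := by
    rw [hr']
    exact Nat.Coprime.pow_right _ hcop
  have hNp : N ∣ p - 1 := ⟨q, by rw [hpN, Nat.add_sub_cancel, mul_comm]⟩
  have hb1 : N ∣ b - 1 := hcopr.dvd_of_dvd_mul_left (hNp.trans h1)
  have hg1 : N ∣ g - 1 := hcopr.dvd_of_dvd_mul_left (hNp.trans h2)
  obtain ⟨m, rfl⟩ := hbg
  have hm2 : 2 ≤ m := by
    by_contra hcon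
    have : m = 0 ∨ m = 1 := by omega
    rcases this with rfl | rfl <;> omega
  have hm1 : N ∣ m - 1 := by
    have h3 : N ∣ m * (b - 1) := hb1.mul_left m
    have h4 : b * m - 1 = m * (b - 1) + (m - 1) := by
      obtain ⟨b', rfl⟩ : ∃ b', b = b' + 1 := ⟨b - 1, by omega⟩
      obtain ⟨m', rfl⟩ : ∃ m', m = m' + 1 := ⟨m - 1, by omega⟩
      simp only [Nat.add_sub_cancel]
      have : (b' + 1) * (m' + 1) = (m' + 1) * b' + m' + 1 := by ring
      omega
    rw [h4] at hg1
    exact (Nat.dvd_add_right h3).1 hg1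
  have hb3 : N ≤ b - 1 := Nat.le_of_dvd (by omega) hb1
  have hm3 : N ≤ m - 1 := Nat.le_of_dvd (by omega) hm1
  have hrpos : 0 < r := by rw [hr']; positivity
  have hg3 : b * m ≤ r := Nat.le_of_dvd hrpos hg
  have hr3 : r = N * (q - 1) + 1 := by
    rw [hN1, hr']
    have : 0 < q ^ (e + 2) := by positivity
    omega
  have h5 : (N + 1) * (N + 1) ≤ b * m := Nat.mul_le_mul (by omega) (by omega)
  obtain ⟨q', rfl⟩ : ∃ q', q = q' + 1 := ⟨q - 1, by omega⟩
  simp only [Nat.add_sub_cancel] at hr3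
  nlinarith

namespace Geo

variable {G Ω F ι : Type*} [Group G] [MulAction G Ω] [Field F] [Fintype ι] [DecidableEq ι]
  (γ : Geo G Ω F ι)

/-- No counterexample in dimension at least three. -/
theorem false_three [FaithfulSMul G Ω] [Finite G] [Finite F] [Finite Ω] [IsPretransitive G Ω]
    (hp : (Nat.card Ω).Prime) (h2 : TwoTr G Ω)
    (hn : γ.ρ.range.Normal) (hι : 3 ≤ Fintype.card ι) {a : Ω} {B Γ : Set Ω} (hbad : Bad G a B Γ) :
    False := by
  have := Fintype.ofFinite F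
  obtain ⟨v0, hv0, ha⟩ := γ.hsurj a
  have hmv : ∀ v : ι → F, v ≠ 0 → Move v := fun v _ => Move.of_three hι v
  obtain ⟨-, hrr⟩ := γ.rr_eq hn (by omega) hmv hbad hv0 ha
  rw [γ.card_E (by omega) hv0] at hrr
  exact numeric (q := Nat.card F) hι (by rw [Nat.card_eq_fintype_card]; exact Fintype.one_lt_card)
    γ.card_Ω hrr hbad.one_lt hbad.dvd (Set.ncard_lt_ncard hbad.sub) (hbad.dvdΓ hp)
    (hbad.dvd_numB h2) (hbad.dvd_numΓ h2)

end Geo

end Cfsg.Agent.H623.PD
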