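import Cfsg.Agent.H623.PDCode
import Cfsg.Agent.H660.SporPrimeIndex
import Cfsg.Agent.Golay.Punctured
import Cfsg.Agent.S0359
import Cfsg.Agent.SporadicA.M24Mem
import Cfsg.Agent.UGT.MTwentyThree.Aut

/-!
Degree 23: the Mathieu group.
-/

set_option autoImplicit false
set_option linter.unusedSectionVars false

namespace Cfsg.Agent.H623.PD

open MulAction Subgroup Cfsg
open Cfsg.Agent.Golay.Punctured
open scoped Pointwise

section

variable {G Ω : Type*} [Group G] [MulAction G Ω] [Finite G] [Finite Ω]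

/-- An equivariant map to the natural points. -/
theorem exists_points [IsPretransitive G Ω] (h : Spor.IsoM23 G) (hΩ : Nat.card Ω = 23) :
    ∃ (e : G →* Cfsg.M24) (E : Ω ≃ ZMod 23), ∀ (g : G) (ω : Ω),
      ((e g : Cfsg.M24) : Equiv.Perm GolayPt) (some (E ω)) = some (E (g • ω)) := by
  classical
  obtain ⟨e, he, hr⟩ := H660.SporPrimeIndex.exists_emb h
  have hfr := H660.SporPrimeIndex.fr24
  have hne : Nonempty Ω := by
    rw [← Finite.card_pos_iff, hΩ]; norm_num
  obtain ⟨a⟩ := hne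
  have hcardG : Nat.card G = 10200960 := by
    obtain ⟨e'⟩ := h
    rw [Nat.card_congr e'.toEquiv]
    exact SporadicA.MathieuRecog.card_M23
  set L := (stabilizer G a).map e with hL
  have hLx : L ≤ stabilizer Cfsg.M24 (none : GolayPt) := by
    rw [← hr]
    exact map_le_range e _
  have hLcard : Nat.card L = 443520 := by
    have h1 : Nat.card L = Nat.card (stabilizer G a) :=
      (Nat.card_congr ((stabilizer G a).equivMapOfInjective e he).toEquiv).symm
    have h2 : Nat.card G = Nat.card Ω * Nat.card (stabilizer G a) := by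
      rw [← index_stabilizer_of_transitive G a, index_mul_card]
    rw [hcardG, hΩ] at h2
    rw [h1]
    omega
  obtain ⟨y, hy, hLy⟩ := hfr.exists_fixed none hLx hLcard
  -- the map
  choose f hf using fun ω : Ω => exists_smul_eq G a ω
  let ψ : Ω → GolayPt := fun ω => (e (f ω)) • y
  have hstab : ∀ g : G, g • a = a → (e g) • y = y := by
    intro g hg
    have h1 : e g ∈ L := ⟨g, hg, rfl⟩
    rw [hLy] at h1
    exact h1.2
  have hψ : ∀ (g : G) (ω : Ω), ψ (g • ω) = e g • ψ ω := by
    intro g ω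
    have h1 : ((f (g • ω))⁻¹ * (g * f ω)) • a = a := by
      rw [mul_smul, mul_smul, hf ω, inv_smul_eq_iff, hf (g • ω)]
    have h2 := hstab _ h1
    rw [map_mul, map_inv, map_mul, mul_smul, inv_smul_eq_iff, mul_smul] at h2
    exact h2.symm
  have hnone : ∀ ω, ψ ω ≠ none := by
    intro ω h1
    have h2 : e (f ω) ∈ stabilizer Cfsg.M24 (none : GolayPt) := by
      rw [← hr]; exact ⟨_, rfl⟩
    have h3 : (e (f ω)) • (none : GolayPt) = none := h2
    have h4 : (e (f ω)) • y = (e (f ω)) • (none : GolayPt) := by rw [h3]; exact h1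
    exact hy (MulAction.injective _ h4)
  have hinj : Function.Injective ψ := by
    intro ω ω' h1
    have h2 : ((f ω)⁻¹ * f ω') • a = a := by
      have h3 : e ((f ω)⁻¹ * f ω') ∈ L := by
        rw [hLy]
        refine ⟨?_, ?_⟩
        · rw [← hr]; exact ⟨_, rfl⟩
        · change e ((f ω)⁻¹ * f ω') • y = y
          rw [map_mul, map_inv, mul_smul, inv_smul_eq_iff]
          exact h1.symm
      obtain ⟨g, hg, hge⟩ := h3
      rw [← he hge]
      exact hg
    rw [mul_smul, inv_smul_eq_iff, hf, hf] at h2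
    exact h2.symm
  -- the bijection with the residues
  choose ψ' hψ' using fun ω => Option.ne_none_iff_exists'.1 (hnone ω)
  have hinj' : Function.Injective ψ' := by
    intro ω ω' h1
    apply hinj
    rw [hψ', hψ', h1]
  have := Fintype.ofFinite Ω
  have hbij : Function.Bijective ψ' := by
    rw [Fintype.bijective_iff_injective_and_card]
    refine ⟨hinj', ?_⟩
    rw [← Nat.card_eq_fintype_card, hΩ, ZMod.card]
  refine ⟨e, Equiv.ofBijective ψ' hbij, fun g ω => ?_⟩
  have h1 := hψ g ω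
  rw [hψ', hψ' ω] at h1
  exact h1.symm

open Classical in
/-- The characteristic word of a set. -/
noncomputable def ch (E : Ω ≃ ZMod 23) (S : Set Ω) : ZMod 23 → ZMod 2 :=
  fun y => if E.symm y ∈ S then 1 else 0

theorem ch_eq_one_iff (E : Ω ≃ ZMod 23) (S : Set Ω) (y : ZMod 23) :
    ch E S y = 1 ↔ E.symm y ∈ S := by
  unfold ch
  split_ifs with h
  · exact ⟨fun _ => h, fun _ => rfl⟩
  · exact ⟨fun h' => absurd h' (by decide), fun h' => absurd h' h⟩

theorem zmod_two_ext {x y : ZMod 2} (h : x = 1 ↔ y = 1) : x = y := by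
  revert x y
  decide

theorem ch_ne_iff (E : Ω ≃ ZMod 23) (S S' : Set Ω) (y : ZMod 23) :
    ch E S y ≠ ch E S' y ↔ E.symm y ∈ symmDiff S S' := by
  rw [Set.mem_symmDiff, ← ch_eq_one_iff E S, ← ch_eq_one_iff E S']
  generalize ch E S y = x
  generalize ch E S' y = x'
  revert x x'
  decide

theorem ch_dist (E : Ω ≃ ZMod 23) (S S' : Set Ω) :
    hammingDist (ch E S) (ch E S') = (symmDiff S S').ncard := by
  classical
  rw [hammingDist, ← Set.ncard_coe_finset]
  rw [← Set.ncard_image_of_injective _ E.symm.injective]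
  congr 1
  ext ω
  constructor
  · rintro ⟨y, hy, rfl⟩
    rw [Finset.mem_coe, Finset.mem_filter] at hy
    exact (ch_ne_iff E S S' y).1 hy.2
  · intro h
    refine ⟨E ω, ?_, E.symm_apply_apply ω⟩
    rw [Finset.mem_coe, Finset.mem_filter]
    refine ⟨Finset.mem_univ _, ?_⟩
    rw [ch_ne_iff, E.symm_apply_apply]
    exact h

theorem ch_norm (E : Ω ≃ ZMod 23) (S : Set Ω) : hammingNorm (ch E S) = S.ncard := by
  have h1 := ch_dist E S ∅
  have h2 : ch E (∅ : Set Ω) = 0 := by
    ext y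
    simp [ch]
  rw [h2, hammingDist_zero_right] at h1
  rw [h1]
  congr 1
  exact symmDiff_bot S

theorem ch_surj (E : Ω ≃ ZMod 23) (u : ZMod 23 → ZMod 2) : ∃ S : Set Ω, ch E S = u := by
  classical
  refine ⟨{ω | u (E ω) = 1}, ?_⟩
  ext y
  simp only [ch, Set.mem_ofPred_eq, Equiv.apply_symm_apply]
  have : ∀ x : ZMod 2, (if x = 1 then (1 : ZMod 2) else 0) = x := by decide
  exact this (u y)

theorem ch_inj (E : Ω ≃ ZMod 23) {S S' : Set Ω} (h : ch E S = ch E S') : S = S' := by
  have h1 := ch_dist E S S'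
  rw [h, hammingDist_self] at h1
  have h2 := (Set.ncard_eq_zero (Set.toFinite _)).1 h1.symm
  exact symmDiff_eq_bot.1 h2

/-- The invariant code. -/
noncomputable def code (e : G →* Cfsg.M24) (E : Ω ≃ ZMod 23) (h : ∀ (g : G) (ω : Ω),
      ((e g : Cfsg.M24) : Equiv.Perm GolayPt) (some (E ω)) = some (E (g • ω))) : GCode G Ω where
  C := {S | ch E S ∈ C23}
  inv := by
    intro g S hS
    obtain ⟨w, hw, hwS⟩ := (mem_C23_iff _).1 hS
    refine (mem_C23_iff _).2 ⟨w ∘ (((e g : Cfsg.M24) : Equiv.Perm GolayPt).symm),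
      (SporadicA.M24Mem.mem_M24_iff _).1 (e g).2 w hw, ?_⟩
    ext y
    have h1 : (((e g : Cfsg.M24) : Equiv.Perm GolayPt).symm) (some y) =
        some (E (g⁻¹ • E.symm y)) := by
      rw [Equiv.symm_apply_eq, h, smul_inv_smul, Equiv.apply_symm_apply]
    change ch E (g • S) y = w ((((e g : Cfsg.M24) : Equiv.Perm GolayPt).symm) (some y))
    rw [h1]
    have h2 := congrFun hwS (E (g⁻¹ • E.symm y))
    change ch E S (E (g⁻¹ • E.symm y)) = w (some (E (g⁻¹ • E.symm y))) at h2
    rw [← h2]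
    apply zmod_two_ext
    rw [ch_eq_one_iff, ch_eq_one_iff, Equiv.symm_apply_apply, Set.mem_smul_set_iff_inv_smul_mem]
  perf := by
    intro S
    obtain ⟨c, ⟨hc1, hc2⟩, -⟩ := golay23_perfect (ch E S)
    obtain ⟨S', rfl⟩ := ch_surj E c
    exact ⟨S', hc1, by rw [← ch_dist E]; exact hc2⟩
  uniq := by
    intro S c c' hc hc' h1 h2
    obtain ⟨c0, -, hc0⟩ := golay23_perfect (ch E S)
    rw [← ch_dist E] at h1 h2
    exact ch_inj E ((hc0 _ ⟨hc, h1⟩).trans (hc0 _ ⟨hc', h2⟩).symm)
  wt := by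
    intro S hS
    obtain ⟨w, hw, hwS⟩ := (mem_C23_iff _).1 hS
    rw [← ch_norm E, hwS]
    have h1 := Cfsg.Agent.S0359.result w hw
    have h2 := hammingNorm_le_res w
    have h3 := res_le_hammingNorm w
    have h4 : hammingNorm (res w) ≤ 23 := by
      have := hammingNorm_le_card_fintype (x := res w)
      rwa [ZMod.card] at this
    have h5 : hammingNorm w = 0 → hammingNorm (res w) = 0 := by
      intro h; omega
    omega
  cnt := by
    have h1 : {c : Set Ω | c ∈ {S | ch E S ∈ C23} ∧ c.ncard = 16}.ncard =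
        {u : ZMod 23 → ZMod 2 | u ∈ C23 ∧ hammingNorm u = 16}.ncard := by
      rw [← Set.ncard_image_of_injective _ (fun S S' h => ch_inj E h :
        Function.Injective (ch E))]
      congr 1
      ext u
      constructor
      · rintro ⟨S, ⟨h1, h2⟩, rfl⟩
        exact ⟨h1, by rw [ch_norm, h2]⟩
      · rintro ⟨h1, h2⟩
        obtain ⟨S, rfl⟩ := ch_surj E u
        exact ⟨S, ⟨h1, by rw [← ch_norm E, h2]⟩, rfl⟩
    rw [h1, ncard_C23_weight, cnt16]

/-- The centraliser of a 2-transitive subgroup of degree at least three is trivial. -/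
theorem centralizer_trivial [FaithfulSMul G Ω] (hΩ : 3 ≤ Nat.card Ω) (T : Subgroup G)
    (h2T : TwoTr T Ω) {g : G} (hg : ∀ t ∈ T, t * g = g * t) : g = 1 := by
  apply FaithfulSMul.eq_of_smul_eq_smul (α := Ω)
  intro x
  rw [one_smul]
  by_contra hne
  -- `T_x` fixes `g • x`
  obtain ⟨z, hzx, hzg⟩ : ∃ z, z ≠ x ∧ z ≠ g • x := by
    by_contra hcon
    push Not at hcon
    have h1 : (Set.univ : Set Ω) ⊆ {x, g • x} := by
      intro z _
      by_cases hz : z = x
      · exact Or.inl hz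
      · exact Or.inr (hcon z hz)
    have h2 := Set.ncard_le_ncard h1
    rw [Set.ncard_univ] at h2
    have h3 := Set.ncard_insert_le x {g • x}
    rw [Set.ncard_singleton] at h3
    omega
  obtain ⟨t, ht1, ht2⟩ := h2T x (g • x) x z (Ne.symm hne) hzx.symm
  apply hzg
  rw [← ht2]
  change (t : G) • g • x = g • x
  rw [smul_smul, hg t t.2, mul_smul]
  congr 1

/-- A normal 2-transitive `M23` is the whole group. -/
theorem eq_top_of_m23 [FaithfulSMul G Ω] (hΩ : Nat.card Ω = 23) (T : Subgroup G) [T.Normal]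
    (h : Spor.IsoM23 T) (h2T : TwoTr T Ω) : T = ⊤ := by
  rw [eq_top_iff]
  intro g _
  obtain ⟨e⟩ := h
  obtain ⟨m, hm⟩ := UGT.MTwentyThree.Aut.exists_conj
    ((e.symm.trans (MulAut.conjNormal (H := T) g)).trans e)
  have hcomm : ∀ t ∈ T, t * (((e.symm m : T) : G)⁻¹ * g) = (((e.symm m : T) : G)⁻¹ * g) * t := by
    intro t ht
    have h1 := congrArg (fun f : MulAut Cfsg.Spor.M23 => f (e ⟨t, ht⟩)) hm
    change e (MulAut.conjNormal g (e.symm (e ⟨t, ht⟩))) = m * e ⟨t, ht⟩ * m⁻¹ at h1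
    rw [e.symm_apply_apply] at h1
    have h2 : MulAut.conjNormal g (⟨t, ht⟩ : T) = e.symm m * ⟨t, ht⟩ * (e.symm m)⁻¹ := by
      apply e.injective
      rw [h1, map_mul, map_mul, map_inv, e.apply_symm_apply]
    have h3 : g * t * g⁻¹ = (e.symm m : T) * t * ((e.symm m : T) : G)⁻¹ := congrArg Subtype.val h2
    have h4 : g * t = (e.symm m : T) * t * ((e.symm m : T) : G)⁻¹ * g := by
      rw [← h3]; group
    rw [mul_assoc _ g t, h4]
    group
  have h5 := centralizer_trivial (by rw [hΩ]; norm_num) T h2T hcomm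
  rw [inv_mul_eq_one] at h5
  rw [← h5]
  exact (e.symm m).2

/-- The Mathieu case. -/
theorem false_m23 [FaithfulSMul G Ω] [IsPretransitive G Ω] (hΩ : Nat.card Ω = 23) (T : Subgroup G)
    [T.Normal] (h : Spor.IsoM23 T) (h2T : TwoTr T Ω) {a : Ω} {B Γ : Set Ω}
    (hbad : Bad G a B Γ) : False := by
  have hT := eq_top_of_m23 hΩ T h h2T
  subst hT
  obtain ⟨e'⟩ := h
  have hG : Spor.IsoM23 G := ⟨topEquiv.symm.trans e'⟩
  obtain ⟨e, E, hE⟩ := exists_points hG hΩ
  have hcardG : Nat.card G = 10200960 := by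
    obtain ⟨e''⟩ := hG
    rw [Nat.card_congr e''.toEquiv]
    exact SporadicA.MathieuRecog.card_M23
  exact false_code hΩ hcardG (H660.SporPrimeIndex.m23_four hG hΩ) (code e E hE) hbad

end

end Cfsg.Agent.H623.PD
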